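import Cfsg.Agent.H449.PushUpB

/-!
# Rank one pushing up: the case `J(S) ≤ Q` and the powers of elements of `V`
-/

set_option autoImplicit false
open Cfsg
open scoped commutatorElement
open Cfsg.Agent.PLocal.ThompsonJA

namespace Cfsg.Agent.H449.PushUp

variable {G : Type*} [Group G] [Finite G] {p : ℕ} {S Q : Subgroup G}

/-- If `J(S) ≤ Q` and `Z(S)` is not normal then `C_S(Z(J(S)))` is normal. -/
theorem normal_of_thompson_le (h : PU p S Q) (hZ : ¬ (ZZ S).Normal)
    (hJ : thompsonSubgroupAOf S ≤ Q) :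
    (S ⊓ Subgroup.centralizer (centerThompsonAOf S : Set G)).Normal := by
  have hQn := h.nQ
  have e1 : centerThompsonAOf Q = centerThompsonAOf S := centerThompsonAOf_eq_of_le hJ h.le
  have hZJn : (centerThompsonAOf S).Normal := by
    rw [← e1, ← Subgroup.normalizer_eq_top_iff, eq_top_iff]
    have := normalizer_le_normalizer_centerThompsonAOf Q
    rwa [Subgroup.normalizer_eq_top_iff.mpr hQn] at this
  have hVZ : VV S ≤ centerThompsonAOf S :=
    Subgroup.normalClosure_le_normal (inf_centralizer_le_centerThompsonAOf S)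
  have e2 : S ⊓ Subgroup.centralizer (centerThompsonAOf S : Set G) =
      Q ⊓ Subgroup.centralizer (centerThompsonAOf S : Set G) := by
    apply le_antisymm
    · refine le_inf ?_ inf_le_right
      rw [← h.inf_cent hZ]
      exact inf_le_inf_left _ (Subgroup.centralizer_le hVZ)
    · exact inf_le_inf_right _ h.le
  rw [e2]
  infer_instance

/-- If `S` acts quadratically on `V` then the `p`-th powers of elements of `V` are central. -/
theorem pow_mem_center (h : PU p S Q) (hq : ⁅VV S, S⁆ ≤ Subgroup.centralizer (S : Set G)) {v : G}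
    (hv : v ∈ VV S) : v ^ p ∈ Subgroup.center G := by
  -- `v ^ p` commutes with `S`, for all `v ∈ V`
  have key : ∀ v ∈ VV S, ∀ s ∈ S, s * v ^ p = v ^ p * s := by
    intro v hv s hs
    have h1 : Subgroup.centralizer ({s} : Set G) = Subgroup.centralizer ({s} : Set G) := rfl
    have hc : ⁅v, s⁆ ∈ VV S := Subgroup.commutator_le_left (VV S) S
      (Subgroup.commutator_mem_commutator hv hs)
    -- the hom `s ↦ [v, s]`
    have hs' : ∀ m : ℕ, ⁅v, s ^ m⁆ = ⁅v, s⁆ ^ m := by
      intro m
      induction m with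
      | zero => rw [pow_zero, pow_zero, commutatorElement_one_right]
      | succ m ih =>
        have e2 : s ^ m * ⁅v, s⁆ = ⁅v, s⁆ * s ^ m :=
          Subgroup.mem_centralizer_iff.mp (hq (Subgroup.commutator_mem_commutator hv hs)) (s ^ m)
            (pow_mem hs m)
        rw [pow_succ s, pow_succ ⁅v, s⁆, ← ih]
        calc ⁅v, s ^ m * s⁆ = v * s ^ m * v⁻¹ * (⁅v, s⁆ * (s ^ m)⁻¹) := by
              simp only [commutatorElement_def]; group
          _ = v * s ^ m * v⁻¹ * ((s ^ m)⁻¹ * ⁅v, s⁆) := by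
              rw [show ⁅v, s⁆ * (s ^ m)⁻¹ = (s ^ m)⁻¹ * ⁅v, s⁆ by
                rw [mul_inv_eq_iff_eq_mul, mul_assoc, ← e2, inv_mul_cancel_left]]
          _ = _ := by simp only [commutatorElement_def]; group
    have hv' : ∀ m : ℕ, ⁅v ^ m, s⁆ = ⁅v, s⁆ ^ m := by
      intro m
      induction m with
      | zero => rw [pow_zero, pow_zero, commutatorElement_one_left]
      | succ m ih =>
        have e2 : v ^ m * ⁅v, s⁆ = ⁅v, s⁆ * v ^ m := h.VV_comm _ (pow_mem hv m) _ hc
        rw [pow_succ v, pow_succ' ⁅v, s⁆, ← ih]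
        calc ⁅v ^ m * v, s⁆ = (v ^ m * ⁅v, s⁆) * s * (v ^ m)⁻¹ * s⁻¹ := by
              simp only [commutatorElement_def]; group
          _ = (⁅v, s⁆ * v ^ m) * s * (v ^ m)⁻¹ * s⁻¹ := by rw [e2]
          _ = _ := by simp only [commutatorElement_def]; group
    have h2 : ⁅v, s ^ p⁆ = 1 := by
      rw [commutatorElement_eq_one_iff_mul_comm]
      exact (Subgroup.mem_centralizer_iff.mp (h.VV_le hv).2 _ (h.pow s hs)).symm
    have h3 : ⁅v ^ p, s⁆ = 1 := by rw [hv', ← hs', h2]
    rw [commutatorElement_eq_one_iff_mul_comm] at h3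
    exact h3.symm
  -- the subgroup of elements commuting with all `p`-th powers is normal and contains `S`
  let T : Subgroup G := Subgroup.centralizer {y : G | ∃ v ∈ VV S, y = v ^ p}
  have hT : T = ⊤ := by
    apply h.big T
    · constructor
      intro x hx g
      change x ∈ Subgroup.centralizer {y : G | ∃ v ∈ VV S, y = v ^ p} at hx
      change g * x * g⁻¹ ∈ Subgroup.centralizer {y : G | ∃ v ∈ VV S, y = v ^ p}
      rw [Subgroup.mem_centralizer_iff] at hx ⊢
      rintro _ ⟨v, hv, rfl⟩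
      have hVn : (VV S).Normal := inferInstance
      have h1 := hx _ ⟨g⁻¹ * v * g⁻¹⁻¹, hVn.conj_mem v hv g⁻¹, rfl⟩
      rw [conj_pow] at h1
      calc v ^ p * (g * x * g⁻¹) = g * ((g⁻¹ * v ^ p * g⁻¹⁻¹) * x) * g⁻¹ := by group
        _ = g * (x * (g⁻¹ * v ^ p * g⁻¹⁻¹)) * g⁻¹ := by rw [h1]
        _ = _ := by group
    · intro s hs
      change s ∈ Subgroup.centralizer {y : G | ∃ v ∈ VV S, y = v ^ p}
      rw [Subgroup.mem_centralizer_iff]
      rintro _ ⟨v, hv, rfl⟩
      exact (key v hv s hs).symm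
  rw [Subgroup.mem_center_iff]
  intro g
  have h1 : g ∈ T := by rw [hT]; trivial
  exact (Subgroup.mem_centralizer_iff.mp h1 _ ⟨v, hv, rfl⟩).symm

end Cfsg.Agent.H449.PushUp
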