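import Cfsg.Agent.H449.PushUpB
import Cfsg.Agent.Lib.HallHigman
import Cfsg.Agent.LieClassical.SLTwoUnipotent
import Cfsg.Agent.ClassicalGeometry.PSL2Basic

/-!
# Rank one pushing up: from `G / K ≃ PSL₂(q)` to `PU`
-/

set_option autoImplicit false
open Cfsg
open scoped commutatorElement
open Cfsg.Agent.LieClassical.SLTwoUnipotent Cfsg.Agent.ClassicalGeometry.PSL2Basic

namespace Cfsg.Agent.H449.PushUp

open Matrix

section SL

variable {F : Type*} [Field F] {L : Type*} [Group L]
  (φ : SpecialLinearGroup (Fin 2) F →* L)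

/-- The diagonal matrix. -/
def hd (t : F) (ht : t ≠ 0) : SpecialLinearGroup (Fin 2) F :=
  ⟨!![t, 0; 0, t⁻¹], by rw [Matrix.det_fin_two_of]; field_simp; ring⟩

theorem coe_hd (t : F) (ht : t ≠ 0) : ((hd t ht : SpecialLinearGroup (Fin 2) F) :
    Matrix (Fin 2) (Fin 2) F) = !![t, 0; 0, t⁻¹] := rfl

theorem hd_conj (t : F) (ht : t ≠ 0) (x : F) : hd t ht * u x * (hd t ht)⁻¹ = u (t ^ 2 * x) := by
  rw [mul_inv_eq_iff_eq_mul]
  apply ext_coe
  rw [coe_mul, coe_mul, coe_hd, coe_u, coe_u, Matrix.mul_fin_two, Matrix.mul_fin_two]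
  ext i j
  fin_cases i <;> fin_cases j
  · simp
  · simp
    field_simp
  · simp
  · simp

/-- The Weyl element. -/
def wl : SpecialLinearGroup (Fin 2) F := ⟨!![0, 1; -1, 0], by rw [Matrix.det_fin_two_of]; ring⟩

theorem coe_wl : ((wl : SpecialLinearGroup (Fin 2) F) : Matrix (Fin 2) (Fin 2) F) = !![0, 1; -1, 0] :=
  rfl

theorem wl_conj (x : F) : wl⁻¹ * u x * wl = l (-x) := by
  rw [mul_assoc, inv_mul_eq_iff_eq_mul]
  apply ext_coe
  rw [coe_mul, coe_mul, coe_wl, coe_u, coe_l, Matrix.mul_fin_two, Matrix.mul_fin_two]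
  ext i j
  fin_cases i <;> fin_cases j <;> simp

variable (hφ : Function.Surjective φ) (hker : φ.ker ≤ Subgroup.center (SpecialLinearGroup (Fin 2) F))

include hker in
theorem u_eq_zero {x : F} (h : φ (u x) = 1) : x = 0 := by
  have h1 : u x ∈ Subgroup.center (SpecialLinearGroup (Fin 2) F) := hker h
  rcases mem_center_SL2_iff.mp h1 with h2 | h2
  · have h3 := congrArg (fun g : SpecialLinearGroup (Fin 2) F => g 0 1) h2
    simp only [coe_u, coe_one] at h3
    simpa using h3
  · have h3 := congrArg (fun g : SpecialLinearGroup (Fin 2) F => g 0 1) h2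
    simp only [coe_u, SpecialLinearGroup.coe_neg, coe_one] at h3
    simpa using h3

include hker in
/-- `φ(u 1)` and `φ(l 1)` do not commute. -/
theorem not_comm : φ (u 1) * φ (l 1) ≠ φ (l 1) * φ (u 1) := by
  intro h
  rw [← map_mul, ← map_mul] at h
  have h1 : (l 1 * u 1 : SpecialLinearGroup (Fin 2) F)⁻¹ * (u 1 * l 1) ∈ φ.ker := by
    rw [MonoidHom.mem_ker, map_mul, map_inv, h, inv_mul_cancel]
  have e1 : ((u 1 * l 1 : SpecialLinearGroup (Fin 2) F) : Matrix (Fin 2) (Fin 2) F) = !![2, 1; 1, 1] := by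
    rw [coe_mul, coe_u, coe_l, Matrix.mul_fin_two]
    ext i j
    fin_cases i <;> fin_cases j <;> simp
    norm_num
  have e2 : ((l 1 * u 1 : SpecialLinearGroup (Fin 2) F) : Matrix (Fin 2) (Fin 2) F) = !![1, 1; 1, 2] := by
    rw [coe_mul, coe_u, coe_l, Matrix.mul_fin_two]
    ext i j
    fin_cases i <;> fin_cases j <;> simp
    norm_num
  rcases mem_center_SL2_iff.mp (hker h1) with h2 | h2
  · rw [inv_mul_eq_iff_eq_mul, mul_one] at h2
    have h3 := congrArg (fun g : SpecialLinearGroup (Fin 2) F => g 0 0) h2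
    simp only [e1, e2] at h3
    simp at h3
    exact one_ne_zero (show (1 : F) = 0 by linear_combination h3)
  · rw [inv_mul_eq_iff_eq_mul] at h2
    have h3 := congrArg (fun g : SpecialLinearGroup (Fin 2) F => g 0 0) h2
    have h4 := congrArg (fun g : SpecialLinearGroup (Fin 2) F => g 0 1) h2
    have e3 : ((l 1 * u 1 * -1 : SpecialLinearGroup (Fin 2) F) : Matrix (Fin 2) (Fin 2) F) =
        !![-1, -1; -1, -2] := by
      rw [coe_mul, e2, SpecialLinearGroup.coe_neg, coe_one]
      ext i j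
      fin_cases i <;> fin_cases j <;> simp
    simp only [e1, e3] at h3 h4
    simp at h3 h4
    have h5 : (2 : F) = 0 := by linear_combination h4
    have h6 : (3 : F) = 0 := by linear_combination h3
    have : (1 : F) = 0 := by linear_combination h6 - h5
    exact one_ne_zero this

/-- An additive subgroup invariant under squares is everything or trivial. -/
theorem sub_cases [Finite F] (R : F → Prop) (hadd : ∀ x y, R x → R y → R (x + y))
    (hneg : ∀ x, R x → R (-x)) (hsq : ∀ t x, R x → R (t ^ 2 * x)) {r : F} (hr : R r) (hr0 : r ≠ 0)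
    (y : F) : R y := by
  have key : ∀ c : F, R (c * r) := by
    intro c
    by_cases h2 : (2 : F) = 0
    · have hch : ringChar F = 2 := by
        have h3 : ringChar F ∣ 2 := by
          rw [← ringChar.spec]
          exact_mod_cast h2
        have h4 : ringChar F ≠ 1 := by
          exact CharP.char_ne_one F (ringChar F)
        rcases (Nat.dvd_prime Nat.prime_two).mp h3 with h5 | h5
        · exact absurd h5 h4
        · exact h5
      obtain ⟨d, hd⟩ := FiniteField.isSquare_of_char_two hch c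
      rw [hd, ← pow_two]
      exact hsq d r hr
    · have e : c * r = ((c + 1) / 2) ^ 2 * r + -(((c - 1) / 2) ^ 2 * r) := by
        field_simp
        ring
      rw [e]
      exact hadd _ _ (hsq _ _ hr) (hneg _ (hsq _ _ hr))
  have := key (y / r)
  rwa [div_mul_cancel₀ _ hr0] at this

include hφ in
/-- Irreducibility of the action of the torus. -/
theorem irr_of [Finite F] {R : Subgroup L} (hRU : R ≤ (upperUnipSL F).map φ)
    (hR : ∀ c : SpecialLinearGroup (Fin 2) F, c 1 0 = 0 → ∀ r ∈ R, φ c * r * (φ c)⁻¹ ∈ R) :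
    R = ⊥ ∨ R = (upperUnipSL F).map φ := by
  by_cases h : R = ⊥
  · exact Or.inl h
  right
  apply le_antisymm hRU
  obtain ⟨⟨r, hr⟩, hr1'⟩ := Subgroup.ne_bot_iff_exists_ne_one.mp h
  have hr1 : r ≠ 1 := fun h => hr1' (Subtype.ext h)
  obtain ⟨v, hv, hvr⟩ := hRU hr
  rw [eq_u_of_mem_upperUnipSL hv] at hvr
  set x₀ := v 0 1
  have hx₀ : x₀ ≠ 0 := by
    intro h0
    apply hr1
    rw [← hvr, h0, u_zero, map_one]
  have hall : ∀ y : F, φ (u y) ∈ R := by
    apply fun y => sub_cases (fun x => φ (u x) ∈ R) ?_ ?_ ?_ (r := x₀) ?_ hx₀ y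
    · intro x y hx hy
      simp only [u_add, map_mul]
      exact mul_mem hx hy
    · intro x hx
      simp only [u_neg, map_inv]
      exact inv_mem hx
    · intro t x hx
      by_cases ht : t = 0
      · subst ht
        simp only [ne_eq, OfNat.ofNat_ne_zero, not_false_eq_true, zero_pow, zero_mul, u_zero, map_one]
        exact one_mem _
      · rw [← hd_conj t ht, map_mul, map_mul, map_inv]
        apply hR _ _ _ hx
        rw [coe_hd]
        simp
    · rw [hvr]; exact hr
  rintro _ ⟨w, hw, rfl⟩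
  rw [eq_u_of_mem_upperUnipSL hw]
  exact hall _

include hφ in
/-- Generation: `U^w` and one nontrivial element of `U` generate. -/
theorem gen_of {x : F} (hx : x ≠ 0) (T : Subgroup L)
    (hT : ∀ v ∈ upperUnipSL F, φ wl * φ v * (φ wl)⁻¹ ∈ T) (hxT : φ (u x) ∈ T) : T = ⊤ := by
  have h1 : (T.comap φ).comap (MulAut.conj (wl : SpecialLinearGroup (Fin 2) F)).toMonoidHom = ⊤ := by
    have hv : (l (-x) : SpecialLinearGroup (Fin 2) F) 1 0 ≠ 0 := by
      rw [coe_l]
      simpa using hx
    have hlx : l (-x) ∈ (T.comap φ).comap (MulAut.conj (wl : SpecialLinearGroup (Fin 2) F)).toMonoidHom := by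
      rw [← wl_conj]
      change φ (wl * (wl⁻¹ * u x * wl) * wl⁻¹) ∈ T
      rw [show wl * (wl⁻¹ * u x * wl) * wl⁻¹ = u x by group]
      exact hxT
    have hU : upperUnipSL F ≤ (T.comap φ).comap (MulAut.conj (wl : SpecialLinearGroup (Fin 2) F)).toMonoidHom := by
      intro v hv
      change φ (wl * v * wl⁻¹) ∈ T
      rw [map_mul, map_mul, map_inv]
      exact hT v hv
    apply upperUnipSL_sup_conj_eq_top _ hv _ hU
    intro y
    exact mul_mem (mul_mem hlx (hU (u_mem_upperUnipSL y))) (inv_mem hlx)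
  rw [eq_top_iff]
  intro y _
  obtain ⟨g, rfl⟩ := hφ y
  have h2 : wl⁻¹ * g * wl ∈ (T.comap φ).comap
      (MulAut.conj (wl : SpecialLinearGroup (Fin 2) F)).toMonoidHom := by
    rw [h1]; trivial
  change φ (wl * (wl⁻¹ * g * wl) * wl⁻¹) ∈ T at h2
  rwa [show wl * (wl⁻¹ * g * wl) * wl⁻¹ = g by group] at h2

end SL

section exist

variable {G : Type*} [Group G] [Finite G] {p : ℕ} [Fact p.Prime]

/-- A parametrization of `G / K ≃ PSL₂(F)` in which the Sylow subgroup `S` maps to the upper unitriangular matrices. -/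
theorem exists_param (S : Sylow p G) (K : Subgroup G) [K.Normal] (F : Type) [Field F] [Fintype F]
    (n : ℕ) (hF : Fintype.card F = p ^ n)
    (e : Nonempty (G ⧸ K ≃* Matrix.ProjectiveSpecialLinearGroup (Fin 2) F)) :
    ∃ φ : SpecialLinearGroup (Fin 2) F →* G ⧸ K, Function.Surjective φ ∧
      φ.ker ≤ Subgroup.center (SpecialLinearGroup (Fin 2) F) ∧
      (upperUnipSL F).map φ = (S : Subgroup G).map (QuotientGroup.mk' K) := by
  obtain ⟨e⟩ := e
  have hchar : CharP F p := by
    obtain ⟨q, hq⟩ := CharP.exists F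
    obtain ⟨m, hqp, hm⟩ := FiniteField.card F q
    have h1 : q = p := by
      have h2 : q ∣ p ^ n := by
        rw [← hF, hm]
        exact dvd_pow_self q m.ne_zero
      exact (Nat.prime_dvd_prime_iff_eq hqp Fact.out).mp (hqp.dvd_of_dvd_pow h2)
    rwa [h1] at hq
  let φ₀ : SpecialLinearGroup (Fin 2) F →* G ⧸ K :=
    e.symm.toMonoidHom.comp (QuotientGroup.mk' (Subgroup.center (SpecialLinearGroup (Fin 2) F)))
  have h₀ : Function.Surjective φ₀ := e.symm.surjective.comp (QuotientGroup.mk'_surjective _)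
  have hk₀ : φ₀.ker ≤ Subgroup.center (SpecialLinearGroup (Fin 2) F) := by
    intro x hx
    have h1 : e.symm (QuotientGroup.mk' (Subgroup.center (SpecialLinearGroup (Fin 2) F)) x) = 1 := hx
    rw [map_eq_one_iff _ e.symm.injective] at h1
    exact (QuotientGroup.eq_one_iff x).mp h1
  obtain ⟨g, hg⟩ := MulAction.exists_smul_eq (G ⧸ K)
    ((upperUnipSylowSL F p).mapSurjective h₀) (S.mapSurjective (QuotientGroup.mk'_surjective K))
  refine ⟨(MulAut.conj g).toMonoidHom.comp φ₀, (MulAut.conj g).surjective.comp h₀, ?_, ?_⟩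
  · intro x hx
    apply hk₀
    have h1 : MulAut.conj g (φ₀ x) = 1 := hx
    rwa [map_eq_one_iff _ (MulAut.conj g).injective] at h1
  · have h1 := congrArg (fun P : Sylow p (G ⧸ K) => (P : Subgroup (G ⧸ K))) hg
    simp only [Sylow.coe_mapSurjective, Sylow.coe_subgroup_smul] at h1
    rw [← h1, ← Subgroup.map_map]
    rfl

/-- **The hypotheses of the rank one pushing up theorems give `PU`.** -/
theorem pu_of (S : Sylow p G)
    (hE₁ : Subgroup.centralizer (Cfsg.pCore p G : Set G) ≤ Cfsg.pCore p G)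
    (hE₂ : ∃! M : Subgroup G, IsCoatom M ∧ (S : Subgroup G) ≤ M) (K : Subgroup G) [K.Normal] (F : Type)
    [Field F] [Fintype F] (n : ℕ) (hn : 1 ≤ n) (hF : Fintype.card F = p ^ n)
    (hE₃ : Nonempty (G ⧸ K ≃* Matrix.ProjectiveSpecialLinearGroup (Fin 2) F)) :
    PU p (S : Subgroup G) (Cfsg.pCore p G) := by
  obtain ⟨φ, hφ, hker, hU⟩ := exists_param S K F n hF hE₃
  obtain ⟨M, ⟨hM, hSM⟩, hMu⟩ := hE₂
  have hF0 : (p : F) = 0 := by
    have h1 : ((Fintype.card F : ℕ) : F) = 0 := by
      have := FiniteField.cast_card_eq_zero F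
      exact this
    rw [hF, Nat.cast_pow] at h1
    exact pow_eq_zero_iff (by omega) |>.mp h1
  -- proper subgroups containing `S` lie in `M`
  have huniq : ∀ T : Subgroup G, (S : Subgroup G) ≤ T → T ≠ ⊤ → T ≤ M := by
    intro T hT hT1
    obtain ⟨N, hN, hTN⟩ := (eq_top_or_exists_le_coatom T).resolve_left hT1
    rw [← hMu N ⟨hN, hT.trans hTN⟩]
    exact hTN
  have hQn : (Cfsg.pCore p G).Normal := Cfsg.Agent.Lib.HallHigman.pCore_normal p
  have hQS : Cfsg.pCore p G ≤ (S : Subgroup G) := Cfsg.Agent.Lib.HallHigman.pCore_le_sylow p S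
  -- dichotomy
  have dich : ∀ N : Subgroup G, N.Normal → N ⊔ (S : Subgroup G) = ⊤ ∨
      N ⊓ (S : Subgroup G) ≤ Cfsg.pCore p G := by
    intro N hN
    by_cases h1 : N ⊔ (S : Subgroup G) = ⊤
    · exact Or.inl h1
    right
    have h2 : N ⊔ (S : Subgroup G) ≤ M := huniq _ le_sup_right h1
    obtain ⟨T, hT⟩ := exists_sylow_subgroupOf S N
    have h3 : (T : Subgroup N).map N.subtype = N ⊓ (S : Subgroup G) := by
      rw [hT, Subgroup.subgroupOf_map_subtype, inf_comm]
    have h4 : Subgroup.normalizer ((N ⊓ (S : Subgroup G) : Subgroup G) : Set G) ⊔ N = ⊤ := by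
      have := Sylow.normalizer_sup_eq_top T
      rwa [h3] at this
    have h5 : (S : Subgroup G) ≤ Subgroup.normalizer ((N ⊓ (S : Subgroup G) : Subgroup G) : Set G) := by
      intro s hs
      rw [Subgroup.mem_normalizer_iff]
      intro x
      constructor
      · rintro ⟨hx1, hx2⟩
        exact ⟨hN.conj_mem _ hx1 s, S.mul_mem (S.mul_mem hs hx2) (S.inv_mem hs)⟩
      · rintro ⟨hx1, hx2⟩
        have e : x = s⁻¹ * (s * x * s⁻¹) * s⁻¹⁻¹ := by group
        rw [e]
        exact ⟨hN.conj_mem _ hx1 s⁻¹,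
          S.mul_mem (S.mul_mem (S.inv_mem hs) hx2) (S.inv_mem (S.inv_mem hs))⟩
    have h6 : Subgroup.normalizer ((N ⊓ (S : Subgroup G) : Subgroup G) : Set G) = ⊤ := by
      by_contra h7
      have h8 := huniq _ h5 h7
      apply hM.1
      rw [eq_top_iff, ← h4]
      exact sup_le h8 (le_sup_left.trans h2)
    have h7 : (N ⊓ (S : Subgroup G)).Normal := Subgroup.normalizer_eq_top_iff.mp h6
    apply Cfsg.Agent.Lib.HallHigman.le_pCore h7
    exact S.2.to_le inf_le_right
  -- the Sylow subgroup of the quotient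
  have hmem : ∀ s ∈ S, ∃ x : F, φ (u x) = QuotientGroup.mk' K s := by
    intro s hs
    have h1 : QuotientGroup.mk' K s ∈ (upperUnipSL F).map φ := by
      rw [hU]
      exact ⟨s, hs, rfl⟩
    obtain ⟨v, hv, e⟩ := h1
    exact ⟨v 0 1, by rw [← eq_u_of_mem_upperUnipSL hv]; exact e⟩
  have hsurj := QuotientGroup.mk'_surjective K
  have hkerK : ∀ x : G, QuotientGroup.mk' K x = 1 ↔ x ∈ K := fun x => QuotientGroup.eq_one_iff x
  -- `K S ≠ G`
  have hKS : K ⊔ (S : Subgroup G) ≠ ⊤ := by
    intro h1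
    apply not_comm φ hker
    have h2 : ∀ y : G ⧸ K, ∃ x : F, φ (u x) = y := by
      intro y
      obtain ⟨g, rfl⟩ := hsurj y
      have hg : g ∈ K ⊔ (S : Subgroup G) := by rw [h1]; trivial
      obtain ⟨k, hk, s, hs, rfl⟩ := Subgroup.mem_sup_of_normal_left.mp hg
      obtain ⟨x, hx⟩ := hmem s hs
      exact ⟨x, by rw [hx, map_mul, (hkerK k).mpr hk, one_mul]⟩
    obtain ⟨y, hy⟩ := h2 (φ (l 1))
    rw [← hy, ← map_mul, ← map_mul, ← u_add, ← u_add, add_comm]
  have hKSQ : K ⊓ (S : Subgroup G) ≤ Cfsg.pCore p G := (dich K inferInstance).resolve_left hKS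
  have hKM : K ≤ M := le_sup_left.trans (huniq _ le_sup_right hKS)
  -- irreducibility in the quotient
  have irrL : ∀ R : Subgroup G, R ≤ S →
      (∀ x ∈ Subgroup.normalizer ((S : Subgroup G) : Set G), ∀ r ∈ R, x * r * x⁻¹ ∈ R) →
      R ≤ K ∨ (S : Subgroup G) ≤ R ⊔ K := by
    intro R hRS hR
    have h1 := irr_of φ hφ (R := R.map (QuotientGroup.mk' K)) (by rw [hU]; exact Subgroup.map_mono hRS) ?_
    · rcases h1 with h2 | h2
      · left
        intro r hr
        rw [← hkerK]
        have h3 : QuotientGroup.mk' K r ∈ R.map (QuotientGroup.mk' K) := ⟨r, hr, rfl⟩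
        rwa [h2, Subgroup.mem_bot] at h3
      · right
        intro s hs
        have h3 : QuotientGroup.mk' K s ∈ R.map (QuotientGroup.mk' K) := by
          rw [h2, hU]
          exact ⟨s, hs, rfl⟩
        obtain ⟨r, hr, e⟩ := h3
        have h4 : r⁻¹ * s ∈ K := by
          rw [← hkerK, map_mul, map_inv, e, inv_mul_cancel]
        have e2 : s = r * (r⁻¹ * s) := by group
        rw [e2]
        exact Subgroup.mul_mem_sup hr h4
    · rintro c hc _ ⟨r, hr, rfl⟩
      obtain ⟨g, hg⟩ := hsurj (φ c)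
      -- `g` normalizes `S K`
      set H : Subgroup G := (S : Subgroup G) ⊔ K with hH
      have hSH : (S : Subgroup G) ≤ H := le_sup_left
      have hmemH : ∀ x : G, x ∈ H ↔ QuotientGroup.mk' K x ∈ (upperUnipSL F).map φ := by
        intro x
        rw [hU]
        constructor
        · intro hx
          obtain ⟨s, hs, k, hk, rfl⟩ := Subgroup.mem_sup_of_normal_right.mp hx
          exact ⟨s, hs, by rw [map_mul, (hkerK k).mpr hk, mul_one]⟩
        · rintro ⟨s, hs, e⟩
          have h4 : s⁻¹ * x ∈ K := by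
            rw [← hkerK, map_mul, map_inv, e, inv_mul_cancel]
          have e2 : x = s * (s⁻¹ * x) := by group
          rw [e2]
          exact Subgroup.mul_mem_sup hs h4
      have hgH : ((g • S : Sylow p G) : Subgroup G) ≤ H := by
        intro x hx
        rw [Sylow.coe_subgroup_smul, Subgroup.mem_pointwise_smul_iff_inv_smul_mem] at hx
        have hx' : g⁻¹ * x * g ∈ (S : Subgroup G) := by
          have e : (MulAut.conj g)⁻¹ • x = g⁻¹ * x * g := by
            rw [← map_inv, MulAut.smul_def, MulAut.conj_apply, inv_inv]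
          rwa [e] at hx
        rw [hmemH]
        obtain ⟨y, hy⟩ := hmem _ hx'
        have e : QuotientGroup.mk' K x = φ (c * u y * c⁻¹) := by
          rw [map_mul, map_mul, map_inv, hy, ← hg, ← map_inv, ← map_mul, ← map_mul]
          congr 1
          group
        rw [e]
        exact ⟨_, conj_mem_upperUnipSL hc (u_mem_upperUnipSL y), rfl⟩
      obtain ⟨h, hh⟩ := MulAction.exists_smul_eq H (S.subtype hSH) ((g • S).subtype hgH)
      rw [Sylow.smul_subtype] at hh
      have hh' := Sylow.subtype_injective hh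
      have hn : (h : G)⁻¹ * g ∈ Subgroup.normalizer ((S : Subgroup G) : Set G) := by
        have : ((h : G)⁻¹ * g) • S = S := by
          rw [mul_smul, ← hh']
          change (h : G)⁻¹ • ((h : G) • S) = S
          rw [inv_smul_smul]
        exact Sylow.smul_eq_iff_mem_normalizer.mp this
      -- `h` acts trivially
      obtain ⟨z, hz, ez⟩ := (hmemH h).mp h.2
      rw [eq_u_of_mem_upperUnipSL hz] at ez
      have hr' := hR _ hn r hr
      obtain ⟨y, hy⟩ := hmem _ (hRS hr')
      refine ⟨_, hr', ?_⟩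
      have e1 : φ c = φ (u (z 0 1)) * QuotientGroup.mk' K ((h : G)⁻¹ * g) := by
        rw [ez, ← map_mul, mul_inv_cancel_left, hg]
      have e2 : φ c * QuotientGroup.mk' K r * (φ c)⁻¹ =
          φ (u (z 0 1)) * QuotientGroup.mk' K ((h : G)⁻¹ * g * r * ((h : G)⁻¹ * g)⁻¹) *
            (φ (u (z 0 1)))⁻¹ := by
        rw [e1, map_mul _ _ ((h : G)⁻¹ * g)⁻¹, map_mul _ _ r, map_inv]
        group
      rw [e2, ← hy, ← map_inv, ← map_mul, ← map_mul]
      congr 1
      rw [← u_neg, ← u_add, ← u_add]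
      congr 1
      ring
  have hSK : ¬ (S : Subgroup G) ≤ K := by
    intro h1
    have h2 : φ (u 1) ∈ (S : Subgroup G).map (QuotientGroup.mk' K) := by
      rw [← hU]
      exact ⟨u 1, u_mem_upperUnipSL 1, rfl⟩
    obtain ⟨s, hs, e⟩ := h2
    rw [(hkerK s).mpr (h1 hs)] at e
    exact one_ne_zero (u_eq_zero φ hker e.symm)
  -- `Q ≤ K`
  have hQK : Cfsg.pCore p G ≤ K := by
    rcases irrL (Cfsg.pCore p G) hQS (fun x _ r hr => hQn.conj_mem r hr x) with h1 | h1
    · exact h1
    · exfalso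
      -- then `S K` is normal
      have h2 : (Cfsg.pCore p G ⊔ K) = (S : Subgroup G) ⊔ K :=
        le_antisymm (sup_le_sup_right hQS K) (sup_le h1 le_sup_right)
      have h3 : ((S : Subgroup G) ⊔ K).Normal := by rw [← h2]; infer_instance
      -- `S ∩ O_p` ... use generation
      have h4 : (S : Subgroup G) ⊔ K = ⊤ := by
        have h5 : ((S : Subgroup G) ⊔ K).map (QuotientGroup.mk' K) = ⊤ := by
          apply gen_of φ hφ (x := 1) one_ne_zero
          · intro v hv
            have h6 : φ v ∈ ((S : Subgroup G) ⊔ K).map (QuotientGroup.mk' K) := by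
              apply Subgroup.map_mono (le_sup_left : (S : Subgroup G) ≤ (S : Subgroup G) ⊔ K)
              rw [← hU]
              exact ⟨v, hv, rfl⟩
            exact (h3.map _ hsurj).conj_mem _ h6 _
          · apply Subgroup.map_mono (le_sup_left : (S : Subgroup G) ≤ (S : Subgroup G) ⊔ K)
            rw [← hU]
            exact ⟨u 1, u_mem_upperUnipSL 1, rfl⟩
        rw [eq_top_iff]
        intro x _
        have h6 : QuotientGroup.mk' K x ∈ ((S : Subgroup G) ⊔ K).map (QuotientGroup.mk' K) := by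
          rw [h5]; trivial
        obtain ⟨y, hy, e⟩ := h6
        have h7 : y⁻¹ * x ∈ K := by
          rw [← hkerK, map_mul, map_inv, e, inv_mul_cancel]
        have e2 : x = y * (y⁻¹ * x) := by group
        rw [e2]
        exact mul_mem hy (Subgroup.mem_sup_right h7)
      apply hKS
      rwa [sup_comm]
  have hSQ : ∀ s ∈ S, s ∈ K → s ∈ Cfsg.pCore p G := fun s hs hk => hKSQ ⟨hk, hs⟩
  have hne : (S : Subgroup G) ≠ Cfsg.pCore p G := fun h1 => hSK (h1 ▸ hQK)
  refine ⟨hQn, hE₁, hQS, hne, S.2, ?_, ?_, dich, ?_, ?_, ?_⟩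
  · rw [Subgroup.commutator_le]
    intro s hs t ht
    apply hSQ
    · rw [commutatorElement_def]
      exact mul_mem (mul_mem (mul_mem hs ht) (inv_mem hs)) (inv_mem ht)
    · rw [← hkerK, map_commutatorElement, commutatorElement_eq_one_iff_mul_comm]
      obtain ⟨x, hx⟩ := hmem s hs
      obtain ⟨y, hy⟩ := hmem t ht
      rw [← hx, ← hy, ← map_mul, ← map_mul, ← u_add, ← u_add, add_comm]
  · intro s hs
    apply hSQ _ (pow_mem hs p)
    rw [← hkerK, map_pow]
    obtain ⟨x, hx⟩ := hmem s hs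
    have h1 : ∀ m : ℕ, (u x : SpecialLinearGroup (Fin 2) F) ^ m = u (m * x) := by
      intro m
      induction m with
      | zero => simp [u_zero]
      | succ m ih => rw [pow_succ, ih, ← u_add, Nat.cast_succ]; congr 1; ring
    rw [← hx, ← map_pow, h1, hF0, zero_mul, u_zero, map_one]
  · intro N hN hSN
    rcases dich N hN with h1 | h1
    · rwa [sup_eq_left.mpr hSN] at h1
    · exfalso
      apply hne
      apply le_antisymm _ hQS
      rwa [inf_eq_right.mpr hSN] at h1
  · intro R hQR hRS hR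
    rcases irrL R hRS hR with h1 | h1
    · left
      exact le_antisymm (fun r hr => hSQ r (hRS hr) (h1 hr)) hQR
    · right
      apply le_antisymm hRS
      intro s hs
      obtain ⟨r, hr, k, hk, rfl⟩ := Subgroup.mem_sup_of_normal_right.mp (h1 hs)
      have hk' : k ∈ (S : Subgroup G) := by
        have := mul_mem (inv_mem (hRS hr)) hs
        rwa [inv_mul_cancel_left] at this
      exact mul_mem hr (hQR (hSQ k hk' hk))
  · obtain ⟨g, hg⟩ := hsurj (φ wl)
    refine ⟨g, fun s hs hsQ T hT hsT => ?_⟩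
    have h1 : T.map (QuotientGroup.mk' K) = ⊤ := by
      obtain ⟨x, hx⟩ := hmem s hs
      have hx0 : x ≠ 0 := by
        intro h0
        apply hsQ
        apply hSQ s hs
        rw [← hkerK, ← hx, h0, u_zero, map_one]
      apply gen_of φ hφ hx0
      · intro v hv
        have h2 : φ v ∈ (S : Subgroup G).map (QuotientGroup.mk' K) := by
          rw [← hU]
          exact ⟨v, hv, rfl⟩
        obtain ⟨t, ht, e⟩ := h2
        rw [← e, ← hg, ← map_inv, ← map_mul, ← map_mul]
        exact ⟨_, hT t ht, rfl⟩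
      · rw [hx]
        exact ⟨s, hsT, rfl⟩
    by_contra hT1
    -- the conjugate of `T` contains `S`
    have h2 : (S : Subgroup G) ≤ T.comap (MulAut.conj g).toMonoidHom := fun x hx => hT x hx
    have h3 : T.comap (MulAut.conj g).toMonoidHom ≠ ⊤ := by
      intro h4
      apply hT1
      rw [eq_top_iff]
      intro y _
      have h5 : g⁻¹ * y * g ∈ T.comap (MulAut.conj g).toMonoidHom := by rw [h4]; trivial
      change g * (g⁻¹ * y * g) * g⁻¹ ∈ T at h5
      rwa [show g * (g⁻¹ * y * g) * g⁻¹ = y by group] at h5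
    have h4 := huniq _ h2 h3
    apply hM.1
    rw [eq_top_iff]
    intro y _
    have h5 : QuotientGroup.mk' K (g * y * g⁻¹) ∈ T.map (QuotientGroup.mk' K) := by rw [h1]; trivial
    obtain ⟨t, ht, e⟩ := h5
    have h6 : t⁻¹ * (g * y * g⁻¹) ∈ K := by
      rw [← hkerK, map_mul, map_inv, e, inv_mul_cancel]
    have h7 : g⁻¹ * t * g ∈ M := by
      apply h4
      change g * (g⁻¹ * t * g) * g⁻¹ ∈ T
      rwa [show g * (g⁻¹ * t * g) * g⁻¹ = t by group]
    have h8 : g⁻¹ * (t⁻¹ * (g * y * g⁻¹)) * g⁻¹⁻¹ ∈ M :=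
      hKM ((inferInstance : K.Normal).conj_mem _ h6 g⁻¹)
    have e3 : y = (g⁻¹ * t * g) * (g⁻¹ * (t⁻¹ * (g * y * g⁻¹)) * g⁻¹⁻¹) := by group
    rw [e3]
    exact mul_mem h7 h8

end exist

end Cfsg.Agent.H449.PushUp
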