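import Mathlib
import Cfsg.Agent.PLocal.Timmesfeld
import Cfsg.Agent.PLocal.ThompsonJA

/-!
# Rank one pushing up (Baumann)

The structure `PU p S Q` collects what is used of a pair `Q = O_p(G) ≤ S ∈ Syl_p(G)` with `G / K ≃ PSL₂(q)` and `S` in a
unique maximal subgroup.  Main results: `PU.quadratic` (if `J(S) ≰ Q` and `Z(S)` is not normal then `S` acts
quadratically on `V = ⟨Z(S)^G⟩`), `PU.card_eq`.
-/

set_option autoImplicit false
open Cfsg
open scoped commutatorElement
open Cfsg.Agent.PLocal.Timmesfeld Cfsg.Agent.PLocal.ThompsonJA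

namespace Cfsg.Agent.H449.PushUp

variable {G : Type*} [Group G]

/-- Abstract rank one pushing up situation. -/
structure PU (p : ℕ) (S Q : Subgroup G) : Prop where
  nQ : Q.Normal
  cent : Subgroup.centralizer (Q : Set G) ≤ Q
  le : Q ≤ S
  ne : S ≠ Q
  pgrp : IsPGroup p S
  comm : ⁅S, S⁆ ≤ Q
  pow : ∀ s ∈ S, s ^ p ∈ Q
  dich : ∀ N : Subgroup G, N.Normal → N ⊔ S = ⊤ ∨ N ⊓ S ≤ Q
  big : ∀ N : Subgroup G, N.Normal → S ≤ N → N = ⊤
  irr : ∀ R : Subgroup G, Q ≤ R → R ≤ S →
    (∀ x ∈ Subgroup.normalizer (S : Set G), ∀ r ∈ R, x * r * x⁻¹ ∈ R) → R = Q ∨ R = S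
  gen : ∃ g : G, ∀ s ∈ S, s ∉ Q → ∀ T : Subgroup G, (∀ x ∈ S, g * x * g⁻¹ ∈ T) → s ∈ T → T = ⊤

/-- The centre of a subgroup, inside the big group. -/
def ZZ (S : Subgroup G) : Subgroup G := S ⊓ Subgroup.centralizer (S : Set G)

theorem mem_ZZ {S : Subgroup G} {x : G} : x ∈ ZZ S ↔ x ∈ S ∧ ∀ y ∈ S, y * x = x * y := by
  rw [ZZ, Subgroup.mem_inf, Subgroup.mem_centralizer_iff]
  rfl

/-- The normal closure of the centre of `S`. -/
def VV (S : Subgroup G) : Subgroup G := Subgroup.normalClosure (ZZ S : Set G)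

instance (S : Subgroup G) : (VV S).Normal := Subgroup.normalClosure_normal

theorem ZZ_le_VV (S : Subgroup G) : ZZ S ≤ VV S := Subgroup.subset_normalClosure

section

variable {p : ℕ} {S Q : Subgroup G}

theorem PU.ZZ_le (h : PU p S Q) : ZZ S ≤ Q ⊓ Subgroup.centralizer (Q : Set G) := by
  intro x hx
  rw [mem_ZZ] at hx
  have h1 : x ∈ Subgroup.centralizer (Q : Set G) :=
    Subgroup.mem_centralizer_iff.mpr fun y hy => hx.2 y (h.le hy)
  exact ⟨h.cent h1, h1⟩

theorem PU.VV_le (h : PU p S Q) : VV S ≤ Q ⊓ Subgroup.centralizer (Q : Set G) := by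
  haveI := h.nQ
  exact Subgroup.normalClosure_le_normal h.ZZ_le

theorem PU.VV_comm (h : PU p S Q) : ∀ x ∈ VV S, ∀ y ∈ VV S, x * y = y * x := fun x hx y hy =>
  Subgroup.mem_centralizer_iff.mp (h.VV_le hy).2 x (h.VV_le hx).1

theorem PU.Q_le_cent (h : PU p S Q) : Q ≤ Subgroup.centralizer (VV S : Set G) := fun x hx =>
  Subgroup.mem_centralizer_iff.mpr fun v hv =>
    (Subgroup.mem_centralizer_iff.mp (h.VV_le hv).2 x hx).symm

/-- If `Z(S)` is not normal then `C_S(V) = Q`. -/
theorem PU.inf_cent (h : PU p S Q) (hZ : ¬ (ZZ S).Normal) :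
    S ⊓ Subgroup.centralizer (VV S : Set G) = Q := by
  apply le_antisymm _ (le_inf h.le h.Q_le_cent)
  rcases h.dich (Subgroup.centralizer (VV S : Set G)) inferInstance with h1 | h1
  · exfalso
    apply hZ
    have h2 : Subgroup.normalizer (ZZ S : Set G) = ⊤ := by
      rw [eq_top_iff, ← h1]
      apply sup_le
      · intro c hc
        rw [Subgroup.mem_normalizer_iff]
        intro z
        constructor
        · intro hz
          rw [← (Subgroup.mem_centralizer_iff.mp hc z (ZZ_le_VV S hz)), mul_inv_cancel_right]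
          exact hz
        · intro hz
          have h3 := Subgroup.mem_centralizer_iff.mp hc _ (ZZ_le_VV S hz)
          have h4 : c * z * c⁻¹ = z := by
            have : c⁻¹ * (c * z * c⁻¹ * c) = z := by group
            rw [h3] at this
            rw [inv_mul_cancel_left] at this
            exact this
          rwa [h4] at hz
      · intro s hs
        rw [Subgroup.mem_normalizer_iff]
        intro z
        constructor
        · intro hz
          have := (mem_ZZ.mp hz).2 s hs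
          rw [this, mul_inv_cancel_right]
          exact hz
        · intro hz
          have h3 := (mem_ZZ.mp hz).2 s hs
          have h4 : s * z * s⁻¹ = z := by
            have : s⁻¹ * (s * (s * z * s⁻¹)) * s = s * z := by group
            rw [h3] at this
            have h5 : s⁻¹ * (s * z * s⁻¹ * s) * s = z * s := by group
            rw [h5] at this
            rw [← this, mul_inv_cancel_right]
          rwa [h4] at hz
    exact Subgroup.normalizer_eq_top_iff.mp h2
  · rwa [inf_comm]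

/-- If `Z(S)` is normal, it is central. -/
theorem PU.ZZ_le_center (h : PU p S Q) (hZ : (ZZ S).Normal) : ZZ S ≤ Subgroup.center G := by
  have h1 : Subgroup.centralizer (ZZ S : Set G) = ⊤ := by
    apply h.big _ inferInstance
    intro s hs
    exact Subgroup.mem_centralizer_iff.mpr fun z hz => ((mem_ZZ.mp hz).2 s hs).symm
  intro z hz
  rw [Subgroup.mem_center_iff]
  intro g
  have h2 : g ∈ Subgroup.centralizer (ZZ S : Set G) := by rw [h1]; trivial
  exact (Subgroup.mem_centralizer_iff.mp h2 z hz).symm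

end

theorem mem_sup_of_le_normalizer {N H : Subgroup G} (h : H ≤ Subgroup.normalizer (N : Set G)) {x : G}
    (hx : x ∈ N ⊔ H) : ∃ n ∈ N, ∃ k ∈ H, n * k = x := by
  have h1 : x ∈ ((N ⊔ H : Subgroup G) : Set G) := hx
  rw [Subgroup.coe_mul_of_right_le_normalizer_left N H h] at h1
  obtain ⟨n, hn, k, hk, e⟩ := Set.mem_mul.mp h1
  exact ⟨n, hn, k, hk, e⟩

theorem le_normalizer_of_comm {V N H : Subgroup G} (hV : ∀ x ∈ V, ∀ y ∈ V, x * y = y * x)
    (hN : N ≤ V) (hH : H ≤ V) : H ≤ Subgroup.normalizer (N : Set G) := by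
  intro x hx
  rw [Subgroup.mem_normalizer_iff]
  intro n
  constructor
  · intro hn
    rw [hV x (hH hx) n (hN hn), mul_inv_cancel_right]
    exact hn
  · intro hn
    have h1 : n = x⁻¹ * (x * n * x⁻¹) * x := by group
    rw [h1, hV x⁻¹ (inv_mem (hH hx)) _ (hN hn), inv_mul_cancel_right]
    exact hn

section maximizers

/-- The subgroups of `V` where the measure `|C_S(W)| |W|` is largest. -/
def Mx (S V : Subgroup G) : Set (Subgroup G) :=
  {W | W ≤ V ∧ ∀ W' : Subgroup G, W' ≤ V → meas S W' ≤ meas S W}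

theorem exists_Mx [Finite G] (S V : Subgroup G) : (Mx S V).Nonempty := by
  obtain ⟨W, hW, hm⟩ := Set.exists_max_image {W : Subgroup G | W ≤ V} (meas S) (Set.toFinite _)
    ⟨V, le_refl V⟩
  exact ⟨W, hW, hm⟩

theorem meas_pos [Finite G] (S W : Subgroup G) : 0 < meas S W :=
  Nat.mul_pos Nat.card_pos Nat.card_pos

theorem Mx_sup_inf [Finite G] {S V W₁ W₂ : Subgroup G} (h₁ : W₁ ∈ Mx S V) (h₂ : W₂ ∈ Mx S V) :
    W₁ ⊔ W₂ ∈ Mx S V ∧ W₁ ⊓ W₂ ∈ Mx S V := by
  have h3 := meas_mul_meas_le S W₁ W₂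
  have e : meas S W₂ = meas S W₁ := le_antisymm (h₁.2 _ h₂.1) (h₂.2 _ h₁.1)
  have h4 := h₁.2 (W₁ ⊔ W₂) (sup_le h₁.1 h₂.1)
  have h5 := h₁.2 (W₁ ⊓ W₂) (inf_le_left.trans h₁.1)
  have hp := meas_pos S W₁
  rw [e] at h3
  have h6 : meas S (W₁ ⊔ W₂) = meas S W₁ := by
    apply le_antisymm h4
    by_contra hc
    push Not at hc
    have : meas S (W₁ ⊔ W₂) * meas S (W₁ ⊓ W₂) < meas S W₁ * meas S W₁ :=
      Nat.mul_lt_mul_of_lt_of_le hc h5 hp
    omega
  have h7 : meas S (W₁ ⊓ W₂) = meas S W₁ := by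
    apply le_antisymm h5
    by_contra hc
    push Not at hc
    have : meas S (W₁ ⊔ W₂) * meas S (W₁ ⊓ W₂) < meas S W₁ * meas S W₁ :=
      Nat.mul_lt_mul_of_le_of_lt h4 hc hp
    omega
  exact ⟨⟨sup_le h₁.1 h₂.1, fun W' hW' => h6 ▸ h₁.2 W' hW'⟩,
    ⟨inf_le_left.trans h₁.1, fun W' hW' => h7 ▸ h₁.2 W' hW'⟩⟩

/-- There is a least maximizer. -/
theorem exists_least [Finite G] (S V : Subgroup G) : ∃ W₀ ∈ Mx S V, ∀ W ∈ Mx S V, W₀ ≤ W := by
  obtain ⟨W₀, hW₀, hm⟩ := Set.exists_min_image (Mx S V) (fun W => Nat.card W) (Set.toFinite _)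
    (exists_Mx S V)
  refine ⟨W₀, hW₀, fun W hW => ?_⟩
  have h1 := hm _ (Mx_sup_inf hW₀ hW).2
  have h2 : W₀ ⊓ W = W₀ := Subgroup.eq_of_le_of_card_ge inf_le_left h1
  exact inf_eq_left.mp h2

theorem exists_greatest [Finite G] (S V : Subgroup G) : ∃ W₀ ∈ Mx S V, ∀ W ∈ Mx S V, W ≤ W₀ := by
  obtain ⟨W₀, hW₀, hm⟩ := Set.exists_max_image (Mx S V) (fun W => Nat.card W) (Set.toFinite _)
    (exists_Mx S V)
  refine ⟨W₀, hW₀, fun W hW => ?_⟩
  have h1 := hm _ (Mx_sup_inf hW₀ hW).1
  have h2 : W₀ = W₀ ⊔ W := Subgroup.eq_of_le_of_card_ge le_sup_left h1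
  rw [h2]
  exact le_sup_right

theorem map_centralizer (f : G ≃* G) (W : Subgroup G) :
    (Subgroup.centralizer (W : Set G)).map f.toMonoidHom =
      Subgroup.centralizer ((W.map f.toMonoidHom : Subgroup G) : Set G) := by
  ext y
  constructor
  · rintro ⟨x, hx, rfl⟩
    rw [Subgroup.mem_centralizer_iff]
    rintro _ ⟨w, hw, rfl⟩
    rw [← map_mul, ← map_mul, Subgroup.mem_centralizer_iff.mp hx w hw]
  · intro hy
    refine ⟨f.symm y, ?_, by simp⟩
    change f.symm y ∈ Subgroup.centralizer (W : Set G)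
    rw [Subgroup.mem_centralizer_iff]
    intro w hw
    apply f.injective
    have := Subgroup.mem_centralizer_iff.mp hy (f w) ⟨w, hw, rfl⟩
    rw [map_mul, map_mul, f.apply_symm_apply]
    exact this

theorem meas_map (f : G ≃* G) (S W : Subgroup G) (hS : S.map f.toMonoidHom = S) :
    meas S (W.map f.toMonoidHom) = meas S W := by
  rw [meas_def, meas_def, ← map_centralizer]
  conv_lhs => rw [← hS]
  rw [hS, Subgroup.card_map_of_injective f.injective]
  congr 1
  rw [show S ⊓ (Subgroup.centralizer (W : Set G)).map f.toMonoidHom =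
    (S ⊓ Subgroup.centralizer (W : Set G)).map f.toMonoidHom by
      rw [Subgroup.map_inf _ _ _ f.injective, hS]]
  exact Subgroup.card_map_of_injective f.injective

theorem Mx_map (f : G ≃* G) {S V W : Subgroup G} (hS : S.map f.toMonoidHom = S)
    (hV : V.map f.toMonoidHom = V) (hW : W ∈ Mx S V) : W.map f.toMonoidHom ∈ Mx S V := by
  refine ⟨?_, fun W' hW' => ?_⟩
  · rw [← hV]
    exact Subgroup.map_mono hW.1
  · rw [meas_map f S W hS]
    exact hW.2 W' hW'

theorem map_conj_eq {S : Subgroup G} {x : G} (hx : x ∈ Subgroup.normalizer (S : Set G)) :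
    S.map (MulAut.conj x).toMonoidHom = S := by
  ext y
  constructor
  · rintro ⟨s, hs, rfl⟩
    exact (Subgroup.mem_normalizer_iff.mp hx s).mp hs
  · intro hy
    refine ⟨x⁻¹ * y * x, ?_, ?_⟩
    · have := (Subgroup.mem_normalizer_iff.mp (inv_mem hx) y).mp hy
      rwa [inv_inv] at this
    · change x * (x⁻¹ * y * x) * x⁻¹ = y
      group

theorem conj_mem_inf_centralizer {S W : Subgroup G} {x : G} (hx : x ∈ Subgroup.normalizer (S : Set G))
    (hW : W.map (MulAut.conj x).toMonoidHom = W) {r : G}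
    (hr : r ∈ S ⊓ Subgroup.centralizer (W : Set G)) :
    x * r * x⁻¹ ∈ S ⊓ Subgroup.centralizer (W : Set G) := by
  refine ⟨(Subgroup.mem_normalizer_iff.mp hx r).mp hr.1, ?_⟩
  have h1 : x * r * x⁻¹ ∈ (Subgroup.centralizer (W : Set G)).map (MulAut.conj x).toMonoidHom :=
    ⟨r, hr.2, rfl⟩
  rw [map_centralizer, hW] at h1
  exact h1

end maximizers

section

variable [Finite G] {p : ℕ} [Fact p.Prime] {S Q : Subgroup G}

/-- The centralizer in `S` of a subgroup of `V` invariant under `N(S)` is `Q` or `S`. -/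
theorem PU.cent_cases (h : PU p S Q) {W : Subgroup G} (hWV : W ≤ VV S)
    (hW : ∀ x ∈ Subgroup.normalizer (S : Set G), W.map (MulAut.conj x).toMonoidHom = W) :
    S ⊓ Subgroup.centralizer (W : Set G) = Q ∨ S ⊓ Subgroup.centralizer (W : Set G) = S := by
  apply h.irr _ _ inf_le_left
  · intro x hx r hr
    exact conj_mem_inf_centralizer hx (hW x hx) hr
  · exact le_inf h.le (h.Q_le_cent.trans (Subgroup.centralizer_le hWV))

theorem map_VV (S : Subgroup G) (x : G) : (VV S).map (MulAut.conj x).toMonoidHom = VV S := by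
  apply map_conj_eq
  rw [Subgroup.normalizer_eq_top_iff.mpr inferInstance]
  trivial

/-- `C_V(S)` is the least maximizer as soon as some proper subgroup of `V` is a maximizer or beats `V`. -/
theorem PU.least_eq (h : PU p S Q) (hZ : ¬ (ZZ S).Normal)
    (hA : ∃ W : Subgroup G, W ≤ VV S ∧ W ≠ VV S ∧ meas S (VV S) ≤ meas S W) :
    VV S ⊓ Subgroup.centralizer (S : Set G) ∈ Mx S (VV S) := by
  obtain ⟨W₀, hW₀, hl⟩ := exists_least S (VV S)
  have hinv : ∀ x ∈ Subgroup.normalizer (S : Set G), W₀.map (MulAut.conj x).toMonoidHom = W₀ := by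
    intro x hx
    have h1 := hl _ (Mx_map (MulAut.conj x) (map_conj_eq hx) (map_VV S x) hW₀)
    exact (Subgroup.eq_of_le_of_card_ge h1
      (Subgroup.card_map_of_injective (MulAut.conj x).injective).le).symm
  rcases h.cent_cases hW₀.1 hinv with h1 | h1
  · exfalso
    have h2 : meas S W₀ = Nat.card Q * Nat.card W₀ := by rw [meas_def, h1]
    have h3 : meas S (VV S) = Nat.card Q * Nat.card (VV S) := by rw [meas_def, h.inf_cent hZ]
    have h4 := hW₀.2 (VV S) le_rfl
    rw [h2, h3] at h4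
    have h5 : W₀ = VV S := Subgroup.eq_of_le_of_card_ge hW₀.1
      (Nat.le_of_mul_le_mul_left h4 Nat.card_pos)
    obtain ⟨W, hWV, hWne, hWm⟩ := hA
    have h6 : W ∈ Mx S (VV S) := ⟨hWV, fun W' hW' => (hW₀.2 W' hW').trans (h5 ▸ hWm)⟩
    exact hWne (le_antisymm hWV (h5 ▸ hl W h6))
  · have h2 : W₀ ≤ VV S ⊓ Subgroup.centralizer (S : Set G) := by
      refine le_inf hW₀.1 ?_
      intro w hw
      rw [Subgroup.mem_centralizer_iff]
      intro s hs
      rw [← h1] at hs
      exact (Subgroup.mem_centralizer_iff.mp hs.2 w hw).symm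
    refine ⟨inf_le_left, fun W' hW' => (hW₀.2 W' hW').trans ?_⟩
    rw [meas_def, meas_def]
    apply Nat.mul_le_mul
    · rw [h1]
      apply Subgroup.card_le_of_le
      refine le_inf le_rfl ?_
      intro s hs
      rw [Subgroup.mem_centralizer_iff]
      intro w hw
      exact (Subgroup.mem_centralizer_iff.mp hw.2 s hs).symm
    · exact Subgroup.card_le_of_le h2

theorem meas_cent (S V : Subgroup G) :
    meas S (V ⊓ Subgroup.centralizer (S : Set G)) =
      Nat.card S * Nat.card (V ⊓ Subgroup.centralizer (S : Set G) : Subgroup G) := by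
  rw [meas_def]
  congr 2
  rw [show S ⊓ Subgroup.centralizer ((V ⊓ Subgroup.centralizer (S : Set G) : Subgroup G) : Set G) = S
    from ?_]
  apply inf_eq_left.mpr
  intro s hs
  rw [Subgroup.mem_centralizer_iff]
  intro w hw
  exact (Subgroup.mem_centralizer_iff.mp hw.2 s hs).symm

/-- **`S` acts quadratically on `V`.** -/
theorem PU.quadratic (h : PU p S Q) (hZ : ¬ (ZZ S).Normal)
    (hA : ∃ W : Subgroup G, W ≤ VV S ∧ W ≠ VV S ∧ meas S (VV S) ≤ meas S W) :
    ⁅VV S, S⁆ ≤ Subgroup.centralizer (S : Set G) := by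
  have hC := h.least_eq hZ hA
  have hSV : S ≤ Subgroup.normalizer (VV S : Set G) := by
    rw [Subgroup.normalizer_eq_top_iff.mpr inferInstance]
    exact le_top
  have hSS : ⁅S, S⁆ ≤ Subgroup.centralizer (VV S : Set G) := h.comm.trans h.Q_le_cent
  set C : Subgroup G := VV S ⊓ Subgroup.centralizer (S : Set G) with hCdef
  have hcomV : ⁅VV S, S⁆ ≤ VV S := Subgroup.commutator_le_left _ _
  have hV'V : ⁅VV S, S⁆ ⊔ C ≤ VV S := sup_le hcomV inf_le_left
  -- `V' = [V, S] C_V(S)` is a maximizer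
  obtain ⟨W₁, hW₁, hg⟩ := exists_greatest S (⁅VV S, S⁆ ⊔ C)
  have hWu : ∀ u ∈ VV S, elemComm S u ⊔ C ≤ W₁ := by
    intro u hu
    apply hg
    refine ⟨sup_le ?_ le_sup_right, ?_⟩
    · apply ((Subgroup.closure_le _).2 _ : elemComm S u ≤ _)
      rintro x ⟨s, hs, rfl⟩
      exact Subgroup.mem_sup_left (Subgroup.commutator_mem_commutator hu hs)
    · intro W' hW'
      have h1 := le_meas_elemComm h.VV_comm hSV hSS hu
      have h2 := hC.2 W' (hW'.trans hV'V)
      rw [hCdef, meas_cent] at h2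
      exact h2.trans h1
  have hW₁eq : W₁ = ⁅VV S, S⁆ ⊔ C := by
    apply le_antisymm hW₁.1
    apply sup_le
    · rw [Subgroup.commutator_le]
      intro u hu s hs
      apply hWu u hu
      exact Subgroup.mem_sup_left (Subgroup.subset_closure ⟨s, hs, rfl⟩)
    · exact le_sup_right.trans (hWu 1 (one_mem _))
  have hinv : ∀ x ∈ Subgroup.normalizer (S : Set G),
      (⁅VV S, S⁆ ⊔ C).map (MulAut.conj x).toMonoidHom = ⁅VV S, S⁆ ⊔ C := by
    intro x hx
    rw [Subgroup.map_sup, Subgroup.map_commutator, map_VV, map_conj_eq hx, hCdef,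
      Subgroup.map_inf _ _ _ (MulAut.conj x).injective, map_VV, map_centralizer, map_conj_eq hx]
  rcases h.cent_cases hV'V hinv with h1 | h1
  · exfalso
    have h2 : meas S (⁅VV S, S⁆ ⊔ C) = Nat.card Q * Nat.card (⁅VV S, S⁆ ⊔ C : Subgroup G) := by
      rw [meas_def, h1]
    have h3 : meas S (VV S) = Nat.card Q * Nat.card (VV S) := by rw [meas_def, h.inf_cent hZ]
    have h4 : meas S (VV S) ≤ meas S (⁅VV S, S⁆ ⊔ C) := by
      have h5 := hC.2 (VV S) le_rfl
      have h6 := hW₁.2 C le_sup_right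
      rw [hW₁eq] at h6
      exact h5.trans h6
    rw [h2, h3] at h4
    have h5 : ⁅VV S, S⁆ ⊔ C = VV S := Subgroup.eq_of_le_of_card_ge hV'V
      (Nat.le_of_mul_le_mul_left h4 Nat.card_pos)
    have hnil : Group.IsNilpotent S := h.pgrp.isNilpotent
    have h6 : ⁅VV S, S⁆ = ⊥ := by
      apply eq_bot_of_le_commutator hnil
      · exact hcomV.trans (h.VV_le.trans (inf_le_left.trans h.le))
      · rw [Subgroup.commutator_le (H₃ := ⁅⁅VV S, S⁆, S⁆)]
        intro v hv s hs
        rw [← h5] at hv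
        obtain ⟨w, hw, c, hc, rfl⟩ := mem_sup_of_le_normalizer
          (le_normalizer_of_comm h.VV_comm hcomV inf_le_left) hv
        have e : ⁅w * c, s⁆ = ⁅w, s⁆ := by
          have := Subgroup.mem_centralizer_iff.mp hc.2 s hs
          calc ⁅w * c, s⁆ = w * (c * s) * c⁻¹ * w⁻¹ * s⁻¹ := by
                rw [commutatorElement_def]; group
            _ = w * (s * c) * c⁻¹ * w⁻¹ * s⁻¹ := by rw [this]
            _ = _ := by rw [commutatorElement_def]; group
        rw [e]
        exact Subgroup.commutator_mem_commutator hw hs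
    apply h.ne
    rw [← h.inf_cent hZ]
    symm
    apply inf_eq_left.mpr
    intro s hs
    rw [Subgroup.mem_centralizer_iff]
    intro v hv
    have h7 : ⁅v, s⁆ ∈ (⊥ : Subgroup G) := h6 ▸ Subgroup.commutator_mem_commutator hv hs
    rw [Subgroup.mem_bot, commutatorElement_eq_one_iff_mul_comm] at h7
    exact h7
  · intro w hw
    rw [Subgroup.mem_centralizer_iff]
    intro s hs
    rw [← h1] at hs
    exact (Subgroup.mem_centralizer_iff.mp hs.2 w (Subgroup.mem_sup_left hw)).symm

/-- `|S| |C_V(S)| ≤ |Q| |V|`. -/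
theorem PU.card_ge (h : PU p S Q) (hZ : ¬ (ZZ S).Normal)
    (hq : ⁅VV S, S⁆ ≤ Subgroup.centralizer (S : Set G)) :
    Nat.card S * Nat.card (VV S ⊓ Subgroup.centralizer (S : Set G) : Subgroup G) ≤
      Nat.card Q * Nat.card (VV S) := by
  obtain ⟨g, hg⟩ := h.gen
  set C : Subgroup G := VV S ⊓ Subgroup.centralizer (S : Set G) with hCdef
  set C' : Subgroup G := C.map (MulAut.conj g).toMonoidHom with hC'def
  set Z : Subgroup G := VV S ⊓ Subgroup.center G with hZdef
  have hC'V : C' ≤ VV S := by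
    rw [← map_VV S g]
    exact Subgroup.map_mono inf_le_left
  have hC'c : ∀ w ∈ C', ∀ x ∈ S, w * (g * x * g⁻¹) = (g * x * g⁻¹) * w := by
    rintro _ ⟨c, hc, rfl⟩ x hx
    have h1 := Subgroup.mem_centralizer_iff.mp hc.2 x hx
    change g * c * g⁻¹ * (g * x * g⁻¹) = (g * x * g⁻¹) * (g * c * g⁻¹)
    calc g * c * g⁻¹ * (g * x * g⁻¹) = g * (c * x) * g⁻¹ := by group
      _ = g * (x * c) * g⁻¹ := by rw [h1]
      _ = _ := by group
  obtain ⟨s₀, hs₀, hs₀Q⟩ : ∃ s ∈ S, s ∉ Q := by
    by_contra hcon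
    push Not at hcon
    exact h.ne (le_antisymm hcon h.le)
  have ha : C ⊓ C' ≤ Z := by
    rintro x ⟨hx, hx'⟩
    refine ⟨hx.1, ?_⟩
    have h1 : Subgroup.centralizer ({x} : Set G) = ⊤ := by
      apply hg s₀ hs₀ hs₀Q
      · intro y hy
        rw [Subgroup.mem_centralizer_singleton_iff]
        exact (hC'c x hx' y hy).symm
      · rw [Subgroup.mem_centralizer_singleton_iff]
        exact Subgroup.mem_centralizer_iff.mp hx.2 s₀ hs₀
    refine Subgroup.mem_center_iff.mpr ?_
    intro y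
    have h2 : y ∈ Subgroup.centralizer ({x} : Set G) := by rw [h1]; trivial
    exact Subgroup.mem_centralizer_singleton_iff.mp h2
  have hb : Nat.card C * Nat.card C ≤ Nat.card Z * Nat.card (VV S) := by
    have h1 := card_mul_card_le (B₁ := C) (B₂ := C') (B₃ := VV S) inf_le_left hC'V
    have h2 : Nat.card C' = Nat.card C :=
      Subgroup.card_map_of_injective (MulAut.conj g).injective
    rw [h2] at h1
    exact h1.trans (Nat.mul_le_mul_right _ (Subgroup.card_le_of_le ha))
  obtain ⟨w, hw, hwc⟩ : ∃ w ∈ C', w ∉ Subgroup.center G := by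
    by_contra hcon
    push Not at hcon
    apply hZ
    have h1 : ZZ S ≤ Subgroup.center G := by
      intro z hz
      have h2 : z ∈ C := ⟨ZZ_le_VV S hz, hz.2⟩
      have h3 : g * z * g⁻¹ ∈ Subgroup.center G := hcon _ ⟨z, h2, rfl⟩
      have h4 := (inferInstance : (Subgroup.center G).Normal).conj_mem _ h3 g⁻¹
      have h5 : g⁻¹ * (g * z * g⁻¹) * g⁻¹⁻¹ = z := by group
      rwa [h5] at h4
    constructor
    intro z hz y
    have h2 := Subgroup.mem_center_iff.mp (h1 hz) y
    rw [h2, mul_inv_cancel_right]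
    exact hz
  -- the subgroup of elements commuting with `w` modulo the centre
  have hsub : ∀ s ∈ S, ⁅w, s⁆ ∈ Subgroup.center G → s ∈ Q := by
    intro s hs hsz
    by_contra hsQ
    let T : Subgroup G :=
      { carrier := {x | ⁅w, x⁆ ∈ Subgroup.center G}
        one_mem' := by
          change ⁅w, (1 : G)⁆ ∈ Subgroup.center G
          rw [commutatorElement_one_right]
          exact one_mem _
        mul_mem' := by
          intro x y hx hy
          change ⁅w, x * y⁆ ∈ Subgroup.center G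
          have e : ⁅w, x * y⁆ = ⁅w, x⁆ * (x * ⁅w, y⁆ * x⁻¹) := by
            simp only [commutatorElement_def]; group
          rw [e]
          exact mul_mem hx ((inferInstance : (Subgroup.center G).Normal).conj_mem _ hy x)
        inv_mem' := by
          intro x hx
          change ⁅w, x⁻¹⁆ ∈ Subgroup.center G
          have e : ⁅w, x⁻¹⁆ = x⁻¹ * ⁅w, x⁆⁻¹ * x⁻¹⁻¹ := by
            simp only [commutatorElement_def]; group
          rw [e]
          exact (inferInstance : (Subgroup.center G).Normal).conj_mem _ (inv_mem hx) x⁻¹ }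
    have hT : T = ⊤ := by
      apply hg s hs hsQ T _ hsz
      intro x hx
      change ⁅w, g * x * g⁻¹⁆ ∈ Subgroup.center G
      have h1 : ⁅w, g * x * g⁻¹⁆ = 1 := by
        rw [commutatorElement_eq_one_iff_mul_comm]
        exact hC'c w hw x hx
      rw [h1]
      exact one_mem _
    have hall : ∀ x : G, ⁅w, x⁆ ∈ Subgroup.center G := by
      intro x
      have : x ∈ T := by rw [hT]; trivial
      exact this
    have hN : (Subgroup.centralizer ({w} : Set G)).Normal := by
      constructor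
      intro x hx y
      rw [Subgroup.mem_centralizer_singleton_iff] at hx ⊢
      have hc := Subgroup.mem_center_iff.mp (hall y)
      -- `w y = c y w`
      have e1 : w * y = ⁅w, y⁆ * (y * w) := by rw [commutatorElement_def]; group
      have e2 : y⁻¹ * w = ⁅w, y⁆ * (w * y⁻¹) := by
        have h3 : y⁻¹ * (w * y) * y⁻¹ = y⁻¹ * w := by group
        have h4 : y⁻¹ * (⁅w, y⁆ * (y * w)) * y⁻¹ = (y⁻¹ * ⁅w, y⁆) * (y * w * y⁻¹) := by group
        rw [← h3, e1, h4, hc y⁻¹]
        group
      calc y * x * y⁻¹ * w = y * x * (y⁻¹ * w) := by group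
        _ = y * x * (⁅w, y⁆ * (w * y⁻¹)) := by rw [e2]
        _ = (y * x * ⁅w, y⁆) * (w * y⁻¹) := by group
        _ = (⁅w, y⁆ * (y * x)) * (w * y⁻¹) := by rw [hc (y * x)]
        _ = ⁅w, y⁆ * y * (x * w) * y⁻¹ := by group
        _ = ⁅w, y⁆ * y * (w * x) * y⁻¹ := by rw [hx]
        _ = (⁅w, y⁆ * (y * w)) * x * y⁻¹ := by group
        _ = (w * y) * x * y⁻¹ := by rw [← e1]
        _ = w * (y * x * y⁻¹) := by group
    have h2 : Subgroup.centralizer ({w} : Set G) = ⊤ := by
      apply h.big _ hN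
      intro x hx
      have h3 : g * x * g⁻¹ ∈ Subgroup.centralizer ({w} : Set G) := by
        rw [Subgroup.mem_centralizer_singleton_iff]
        exact (hC'c w hw x hx).symm
      have h4 := hN.conj_mem _ h3 g⁻¹
      have h5 : g⁻¹ * (g * x * g⁻¹) * g⁻¹⁻¹ = x := by group
      rwa [h5] at h4
    apply hwc
    rw [Subgroup.mem_center_iff]
    intro y
    have h6 : y ∈ Subgroup.centralizer ({w} : Set G) := by rw [h2]; trivial
    exact Subgroup.mem_centralizer_singleton_iff.mp h6
  have hwV : w ∈ VV S := hC'V hw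
  have hSV : S ≤ Subgroup.normalizer (VV S : Set G) := by
    rw [Subgroup.normalizer_eq_top_iff.mpr inferInstance]
    exact le_top
  have hmem : ∀ a : S, ⁅w, (a : G)⁆ ∈ C := fun a =>
    ⟨commutator_mem_of_mem hSV hwV a.2, hq (Subgroup.commutator_mem_commutator hwV a.2)⟩
  have hZC : Z ≤ C := by
    refine le_inf inf_le_left ?_
    intro z hz
    rw [Subgroup.mem_centralizer_iff]
    intro s _
    exact Subgroup.mem_center_iff.mp hz.2 s
  have e1 : Nat.card Q * Q.relIndex S = Nat.card S := by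
    have h := Subgroup.relIndex_mul_relIndex (⊥ : Subgroup G) Q S bot_le h.le
    rw [Subgroup.relIndex_bot_left, Subgroup.relIndex_bot_left] at h
    exact h
  have e2 : Nat.card Z * Z.relIndex C = Nat.card C := by
    have h := Subgroup.relIndex_mul_relIndex (⊥ : Subgroup G) Z C bot_le hZC
    rw [Subgroup.relIndex_bot_left, Subgroup.relIndex_bot_left] at h
    exact h
  have e3 : Q.relIndex S ≤ Z.relIndex C := by
    refine Nat.card_le_card_of_injective
      (fun q : S ⧸ Q.subgroupOf S => (QuotientGroup.mk ⟨⁅w, (q.out : G)⁆, hmem q.out⟩ : C ⧸ Z.subgroupOf C)) ?_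
    intro q q' hqq
    have h1 : (⁅w, (q.out : G)⁆⁻¹ * ⁅w, (q'.out : G)⁆) ∈ Z := by
      have := QuotientGroup.eq.1 hqq
      rw [Subgroup.mem_subgroupOf] at this
      exact this
    have h2 : ((q.out : G)⁻¹ * (q'.out : G)) ∈ Q := by
      apply hsub _ (mul_mem (inv_mem q.out.2) q'.out.2)
      have h3 : ⁅w, (q.out : G)⁻¹ * (q'.out : G)⁆ =
          (q.out : G)⁻¹ * (⁅w, (q.out : G)⁆⁻¹ * ⁅w, (q'.out : G)⁆) * (q.out : G)⁻¹⁻¹ := by
        simp only [commutatorElement_def]
        group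
      rw [h3]
      exact (inferInstance : (Subgroup.center G).Normal).conj_mem _ h1.2 _
    have h4 : (QuotientGroup.mk q.out : S ⧸ Q.subgroupOf S) = QuotientGroup.mk q'.out := by
      refine QuotientGroup.eq.2 ?_
      rw [Subgroup.mem_subgroupOf]
      exact h2
    rwa [QuotientGroup.out_eq', QuotientGroup.out_eq'] at h4
  have hZpos : 0 < Nat.card Z := Nat.card_pos
  have h5 : Nat.card S * Nat.card Z ≤ Nat.card Q * Nat.card C := by
    rw [← e1, ← e2]
    calc Nat.card Q * Q.relIndex S * Nat.card Z = Nat.card Q * (Nat.card Z * Q.relIndex S) := by ring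
      _ ≤ Nat.card Q * (Nat.card Z * Z.relIndex C) := by gcongr
  have h6 : Nat.card S * Nat.card C * Nat.card Z ≤ Nat.card Q * Nat.card (VV S) * Nat.card Z := by
    calc Nat.card S * Nat.card C * Nat.card Z = (Nat.card S * Nat.card Z) * Nat.card C := by ring
      _ ≤ (Nat.card Q * Nat.card C) * Nat.card C := Nat.mul_le_mul_right _ h5
      _ = Nat.card Q * (Nat.card C * Nat.card C) := by ring
      _ ≤ Nat.card Q * (Nat.card Z * Nat.card (VV S)) := Nat.mul_le_mul_left _ hb
      _ = _ := by ring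
  exact Nat.le_of_mul_le_mul_right h6 hZpos

end

end Cfsg.Agent.H449.PushUp
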