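import Cfsg.Agent.H449.PushUp
import Mathlib.GroupTheory.Focal

/-!
# Rank one pushing up (Baumann), second part

`PU.baumann`: if `Z(S)` is not normal and `J(S) ≰ Q`, then `B = C_S(Z(J(S)))` is the intersection of its normal closure with
`S`, and the normal closure of `J(S)` centralizes `[Z(J(S)), Q]`.
-/

set_option autoImplicit false
open Cfsg
open scoped commutatorElement
open Cfsg.Agent.PLocal.Timmesfeld Cfsg.Agent.PLocal.ThompsonJA

namespace Cfsg.Agent.H449.PushUp

/-! ### Transfer -/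

section transfer

variable {X : Type*} [Group X] [Finite X] {p : ℕ} [Fact p.Prime]

theorem sylow_le_of_normalClosure_comm (T : Sylow p X) (hT : ∀ x ∈ T, ∀ y ∈ T, x * y = y * x)
    (B Z : Subgroup X) (hBT : B ≤ T)
    (hN : ∀ n ∈ Subgroup.normalizer ((T : Subgroup X) : Set X), ∀ b ∈ B, n * b * n⁻¹ ∈ B)
    (hZ : Z ≤ Subgroup.center X) (hTBZ : (T : Subgroup X) ≤ B ⊔ Z)
    (hB : Subgroup.normalClosure (B : Set X) = ⊤) : (T : Subgroup X) ≤ B := by
  have : IsMulCommutative T := ⟨⟨fun x y => Subtype.ext (hT x x.2 y y.2)⟩⟩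
  have hcenN : Z.Normal := by
    constructor
    intro z hz g
    rw [Subgroup.mem_center_iff.mp (hZ hz) g, mul_inv_cancel_right]
    exact hz
  -- the focal subgroup lies in `B`
  have hfoc : (T : Subgroup X).focalSubgroup ≤ B := by
    rw [Subgroup.focalSubgroup_def, Subgroup.closure_le]
    rintro g ⟨hgT, x, hx, u, rfl⟩
    have hux : (u⁻¹)⁻¹ * x⁻¹ * u⁻¹ ∈ T := by
      have : (u⁻¹)⁻¹ * x⁻¹ * u⁻¹ = x⁻¹ * ⁅x, u⁆ := by
        rw [commutatorElement_def]; group
      rw [this]
      exact T.mul_mem (T.inv_mem hx) hgT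
    obtain ⟨n, hn, hnx⟩ := T.conj_eq_normalizer_conj_of_mem x⁻¹ u⁻¹ (T.inv_mem hx) hux
    have e1 : ⁅x, u⁆ = ⁅x, n⁻¹⁆ := by
      rw [inv_inv] at hnx
      rw [commutatorElement_def, commutatorElement_def, inv_inv, mul_assoc x, mul_assoc x, hnx,
        mul_assoc x, mul_assoc x]
    obtain ⟨b, hb, z, hz, rfl⟩ := Subgroup.mem_sup_of_normal_right.mp (hTBZ hx)
    have e2 : ⁅b * z, n⁻¹⁆ = b * (n⁻¹ * b⁻¹ * n⁻¹⁻¹) := by
      have := Subgroup.mem_center_iff.mp (hZ hz) n⁻¹
      calc ⁅b * z, n⁻¹⁆ = b * (z * n⁻¹) * z⁻¹ * b⁻¹ * n⁻¹⁻¹ := by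
            rw [commutatorElement_def]; group
        _ = b * (n⁻¹ * z) * z⁻¹ * b⁻¹ * n⁻¹⁻¹ := by rw [this]
        _ = _ := by group
    rw [SetLike.mem_coe, e1, e2]
    exact mul_mem hb (hN _ (inv_mem hn) _ (inv_mem hb))
  set K : Subgroup X := (T : Subgroup X).transferFocal.ker with hK
  have hKT : K ⊓ T ≤ B := by
    rw [hK, Subgroup.ker_transferFocal_inf_eq_focalSubgroup T]
    exact hfoc
  have hq : ∀ a b : (T : Subgroup X) ⧸ (T : Subgroup X).focalSubgroupOf, a * b = b * a := by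
    intro a b
    obtain ⟨a, rfl⟩ := QuotientGroup.mk_surjective a
    obtain ⟨b, rfl⟩ := QuotientGroup.mk_surjective b
    rw [← QuotientGroup.mk_mul, ← QuotientGroup.mk_mul]
    congr 1
    exact Subtype.ext (hT a a.2 b b.2)
  have hcomm : ∀ x y : X, ⁅x, y⁆ ∈ K := by
    intro x y
    rw [hK, MonoidHom.mem_ker, map_commutatorElement]
    rw [commutatorElement_eq_one_iff_mul_comm]
    exact hq _ _
  have hBK : (B ⊔ K).Normal := by
    constructor
    intro x hx g
    have e : g * x * g⁻¹ = ⁅g, x⁆ * x := by rw [commutatorElement_def]; group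
    rw [e]
    exact mul_mem (Subgroup.mem_sup_right (hcomm g x)) hx
  have htop : B ⊔ K = ⊤ := by
    rw [eq_top_iff, ← hB]
    apply Subgroup.normalClosure_le_normal
    exact (le_sup_left : B ≤ B ⊔ K)
  intro t ht
  have h1 : t ∈ B ⊔ K := by rw [htop]; trivial
  obtain ⟨b, hb, k, hk, rfl⟩ := Subgroup.mem_sup_of_normal_right.mp h1
  refine mul_mem hb (hKT ⟨hk, ?_⟩)
  have : k = b⁻¹ * (b * k) := by group
  rw [this]
  exact T.mul_mem (T.inv_mem (hBT hb)) ht

/-- `T` Sylow, `C ≤ B ≤ T`, `C` normal, `[T, T] ≤ C`, `B` is normalized by `N(T)`, `T ≤ B Z`, `[Z, X] ≤ C` and `B` is not in a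
proper normal subgroup: then `T = B`. -/
theorem sylow_le_of_normalClosure (T : Sylow p X) (C B Z : Subgroup X) [C.Normal]
    (hT : ⁅(T : Subgroup X), (T : Subgroup X)⁆ ≤ C) (hCB : C ≤ B) (hBT : B ≤ T)
    (hN : ∀ n ∈ Subgroup.normalizer ((T : Subgroup X) : Set X), ∀ b ∈ B, n * b * n⁻¹ ∈ B)
    (hZ : ∀ z ∈ Z, ∀ x : X, ⁅z, x⁆ ∈ C) (hTBZ : (T : Subgroup X) ≤ B ⊔ Z)
    (hB : Subgroup.normalClosure (B : Set X) = ⊤) : (T : Subgroup X) ≤ B := by
  set π := QuotientGroup.mk' C with hπ
  have hsurj : Function.Surjective π := QuotientGroup.mk'_surjective C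
  have hker : ∀ x : X, π x = 1 ↔ x ∈ C := fun x => QuotientGroup.eq_one_iff x
  have hcoe : ((T.mapSurjective hsurj : Sylow p (X ⧸ C)) : Subgroup (X ⧸ C)) =
      (T : Subgroup X).map π := Sylow.coe_mapSurjective hsurj T
  have hCT : C ≤ (T : Subgroup X) := hCB.trans hBT
  have memT : ∀ x : X, π x ∈ (T : Subgroup X).map π ↔ x ∈ (T : Subgroup X) := by
    intro x
    constructor
    · rintro ⟨t, ht, e⟩
      have h1 : π (t⁻¹ * x) = 1 := by rw [map_mul, map_inv, e, inv_mul_cancel]
      have h2 : x = t * (t⁻¹ * x) := by group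
      rw [h2]
      exact mul_mem ht (hCT ((hker _).mp h1))
    · intro hx
      exact ⟨x, hx, rfl⟩
  have h1 := sylow_le_of_normalClosure_comm (T.mapSurjective hsurj) ?_ (B.map π) (Z.map π) ?_ ?_ ?_ ?_ ?_
  · intro t ht
    have h2 : π t ∈ B.map π := by
      apply h1
      rw [hcoe]
      exact ⟨t, ht, rfl⟩
    obtain ⟨b, hb, e⟩ := h2
    have h3 : π (b⁻¹ * t) = 1 := by rw [map_mul, map_inv, e, inv_mul_cancel]
    have h4 : t = b * (b⁻¹ * t) := by group
    rw [h4]
    exact mul_mem hb (hCB ((hker _).mp h3))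
  · intro x hx y hy
    change x ∈ ((T.mapSurjective hsurj : Sylow p (X ⧸ C)) : Subgroup (X ⧸ C)) at hx
    change y ∈ ((T.mapSurjective hsurj : Sylow p (X ⧸ C)) : Subgroup (X ⧸ C)) at hy
    rw [hcoe] at hx hy
    obtain ⟨s, hs, rfl⟩ := hx
    obtain ⟨t, ht, rfl⟩ := hy
    rw [← commutatorElement_eq_one_iff_mul_comm, ← map_commutatorElement, hker]
    exact hT (Subgroup.commutator_mem_commutator hs ht)
  · rw [hcoe]
    exact Subgroup.map_mono hBT
  · intro n hn b hb
    obtain ⟨n, rfl⟩ := hsurj n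
    obtain ⟨b, hb, rfl⟩ := hb
    rw [← map_inv, ← map_mul, ← map_mul]
    refine ⟨_, hN n ?_ b hb, rfl⟩
    have hn' : π n ∈ Subgroup.normalizer
        (((T.mapSurjective hsurj : Sylow p (X ⧸ C)) : Subgroup (X ⧸ C)) : Set (X ⧸ C)) := hn
    rw [hcoe] at hn'
    rw [Subgroup.mem_normalizer_iff] at hn' ⊢
    intro x
    have h2 := hn' (π x)
    rw [← map_inv, ← map_mul, ← map_mul, memT, memT] at h2
    exact h2
  · rintro _ ⟨z, hz, rfl⟩
    rw [Subgroup.mem_center_iff]
    intro x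
    obtain ⟨x, rfl⟩ := hsurj x
    symm
    rw [← commutatorElement_eq_one_iff_mul_comm, ← map_commutatorElement, hker]
    exact hZ z hz x
  · rw [hcoe, ← Subgroup.map_sup]
    exact Subgroup.map_mono hTBZ
  · rw [eq_top_iff]
    intro x _
    obtain ⟨x, rfl⟩ := hsurj x
    have h2 : x ∈ Subgroup.normalClosure (B : Set X) := by rw [hB]; trivial
    have h3 : Subgroup.normalClosure (B : Set X) ≤
        (Subgroup.normalClosure ((B.map π : Subgroup (X ⧸ C)) : Set (X ⧸ C))).comap π := by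
      apply Subgroup.normalClosure_le_normal
      intro b hb
      exact Subgroup.subset_normalClosure ⟨b, hb, rfl⟩
    exact h3 h2

theorem exists_sylow_subgroupOf (S : Sylow p X) (N : Subgroup X) [N.Normal] :
    ∃ T : Sylow p N, (T : Subgroup N) = (S : Subgroup X).subgroupOf N := by
  have h1 : IsPGroup p ((S : Subgroup X).subgroupOf N) :=
    S.2.comap_of_injective N.subtype N.subtype_injective
  obtain ⟨T, hT⟩ := h1.exists_le_sylow
  refine ⟨T, ?_⟩
  symm
  apply Subgroup.eq_of_le_of_card_ge hT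
  have h2 : IsPGroup p ((T : Subgroup N).map N.subtype) := T.2.map _
  obtain ⟨S', hS'⟩ := h2.exists_le_sylow
  obtain ⟨g, hg⟩ := MulAction.exists_smul_eq X S S'
  have h3 : ((T : Subgroup N).map N.subtype).map (MulAut.conj g⁻¹).toMonoidHom ≤ (S : Subgroup X) ⊓ N := by
    rintro _ ⟨x, hx, rfl⟩
    constructor
    · have h4 : x ∈ (S' : Subgroup X) := hS' hx
      rw [← hg, Sylow.coe_subgroup_smul, Subgroup.mem_pointwise_smul_iff_inv_smul_mem] at h4
      have h5 : (MulAut.conj g)⁻¹ • x = (MulAut.conj g⁻¹).toMonoidHom x := by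
        rw [← map_inv]
        rfl
      rw [h5] at h4
      exact h4
    · obtain ⟨y, _, rfl⟩ := hx
      exact (inferInstance : N.Normal).conj_mem _ y.2 g⁻¹
  have h4 := Subgroup.card_le_of_le h3
  rw [Subgroup.card_map_of_injective (MulAut.conj g⁻¹).injective,
    Subgroup.card_map_of_injective N.subtype_injective] at h4
  have h5 : Nat.card ((S : Subgroup X).subgroupOf N) = Nat.card ((S : Subgroup X) ⊓ N : Subgroup X) := by
    rw [← Subgroup.subgroupOf_map_subtype, Subgroup.card_map_of_injective N.subtype_injective]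
  rw [h5]
  exact h4

end transfer

/-! ### The Thompson subgroup -/

section main

variable {G : Type*} [Group G] [Finite G] {p : ℕ} [Fact p.Prime] {S Q : Subgroup G}

theorem PU.maxAb_meas (h : PU p S Q) (hZ : ¬ (ZZ S).Normal) {A : Subgroup G}
    (hA : A ∈ maxAbelianIn S) :
    meas S (VV S) ≤ Nat.card (A ⊔ Q : Subgroup G) * Nat.card (VV S ⊓ A : Subgroup G) ∧
    Nat.card (A ⊔ Q : Subgroup G) * Nat.card (VV S ⊓ A : Subgroup G) ≤
      meas S (VV S ⊓ Subgroup.centralizer (A : Set G)) := by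
  have hAc := (PLocal.ThompsonJA.isMulCommutative_iff A).mp hA.2.1
  constructor
  · rw [meas_def, h.inf_cent hZ]
    -- `(A ⊓ Q) ⊔ V` is abelian
    have hc1 : (A ⊓ Q ⊔ VV S : Subgroup G) ≤ S :=
      sup_le (inf_le_right.trans h.le) (h.VV_le.trans (inf_le_left.trans h.le))
    have hc2 : IsMulCommutative (A ⊓ Q ⊔ VV S : Subgroup G) := by
      rw [PLocal.ThompsonJA.isMulCommutative_iff]
      intro x hx y hy
      obtain ⟨a, ha, v, hv, rfl⟩ := Subgroup.mem_sup_of_normal_right.mp hx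
      obtain ⟨b, hb, w, hw, rfl⟩ := Subgroup.mem_sup_of_normal_right.mp hy
      have e1 := hAc a ha.1 b hb.1
      have e2 := h.VV_comm v hv w hw
      have e3 : a * w = w * a := (Subgroup.mem_centralizer_iff.mp (h.VV_le hw).2 a ha.2)
      have e4 : b * v = v * b := (Subgroup.mem_centralizer_iff.mp (h.VV_le hv).2 b hb.2)
      calc a * v * (b * w) = a * (v * b) * w := by group
        _ = a * (b * v) * w := by rw [e4]
        _ = (a * b) * (v * w) := by group
        _ = (b * a) * (w * v) := by rw [e1, e2]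
        _ = b * (a * w) * v := by group
        _ = b * (w * a) * v := by rw [e3]
        _ = _ := by group
    have h1 := hA.2.2 _ hc1 hc2
    have h2 := card_mul_card_le (B₁ := VV S) (B₂ := A ⊓ Q) (B₃ := A ⊓ Q ⊔ VV S) le_sup_right le_sup_left
    have h3 := card_mul_card_le (B₁ := A) (B₂ := Q) (B₃ := A ⊔ Q) le_sup_left le_sup_right
    have h4 : Nat.card (VV S ⊓ (A ⊓ Q) : Subgroup G) ≤ Nat.card (VV S ⊓ A : Subgroup G) :=
      Subgroup.card_le_of_le (inf_le_inf_left _ inf_le_left)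
    have hpos : 0 < Nat.card (A ⊓ Q : Subgroup G) := Nat.card_pos
    have h5 : Nat.card Q * Nat.card (VV S) * Nat.card (A ⊓ Q : Subgroup G) ≤
        Nat.card (A ⊔ Q : Subgroup G) * Nat.card (VV S ⊓ A : Subgroup G) *
          Nat.card (A ⊓ Q : Subgroup G) := by
      calc Nat.card Q * Nat.card (VV S) * Nat.card (A ⊓ Q : Subgroup G)
          = Nat.card Q * (Nat.card (VV S) * Nat.card (A ⊓ Q : Subgroup G)) := by ring
        _ ≤ Nat.card Q * (Nat.card (VV S ⊓ (A ⊓ Q) : Subgroup G) *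
            Nat.card (A ⊓ Q ⊔ VV S : Subgroup G)) := Nat.mul_le_mul_left _ h2
        _ ≤ Nat.card Q * (Nat.card (VV S ⊓ A : Subgroup G) * Nat.card A) :=
            Nat.mul_le_mul_left _ (Nat.mul_le_mul h4 h1)
        _ = (Nat.card A * Nat.card Q) * Nat.card (VV S ⊓ A : Subgroup G) := by ring
        _ ≤ (Nat.card (A ⊓ Q : Subgroup G) * Nat.card (A ⊔ Q : Subgroup G)) *
            Nat.card (VV S ⊓ A : Subgroup G) := Nat.mul_le_mul_right _ h3
        _ = _ := by ring
    exact Nat.le_of_mul_le_mul_right h5 hpos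
  · rw [meas_def]
    apply Nat.mul_le_mul
    · apply Subgroup.card_le_of_le
      refine sup_le (le_inf hA.1 ?_) (le_inf h.le (h.Q_le_cent.trans (Subgroup.centralizer_le ?_)))
      · intro a ha
        rw [Subgroup.mem_centralizer_iff]
        intro w hw
        exact (Subgroup.mem_centralizer_iff.mp hw.2 a ha).symm
      · exact inf_le_left
    · apply Subgroup.card_le_of_le
      apply inf_le_inf_left
      intro a ha
      rw [Subgroup.mem_centralizer_iff]
      intro b hb
      exact hAc b hb a ha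

/-- `[Y, N] ≤ V` extends to the normal closure of `N`. -/
theorem commutator_normalClosure_le {Y V J : Subgroup G} [Y.Normal] [V.Normal] (h : ⁅Y, J⁆ ≤ V) :
    ⁅Y, Subgroup.normalClosure (J : Set G)⁆ ≤ V := by
  have hn : (Y.map (QuotientGroup.mk' V)).Normal :=
    (inferInstance : Y.Normal).map _ (QuotientGroup.mk'_surjective V)
  have key : ∀ x y : G, ⁅x, y⁆ ∈ V ↔ (QuotientGroup.mk' V x) * (QuotientGroup.mk' V y) =
      (QuotientGroup.mk' V y) * (QuotientGroup.mk' V x) := by
    intro x y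
    rw [← commutatorElement_eq_one_iff_mul_comm, ← map_commutatorElement]
    exact (QuotientGroup.eq_one_iff _).symm
  have h1 : Subgroup.normalClosure (J : Set G) ≤
      (Subgroup.centralizer ((Y.map (QuotientGroup.mk' V) : Subgroup (G ⧸ V)) : Set (G ⧸ V))).comap
        (QuotientGroup.mk' V) := by
    apply Subgroup.normalClosure_le_normal
    intro j hj
    change QuotientGroup.mk' V j ∈ Subgroup.centralizer _
    rw [Subgroup.mem_centralizer_iff]
    rintro _ ⟨y, hy, rfl⟩
    exact (key y j).mp (h (Subgroup.commutator_mem_commutator hy hj))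
  rw [Subgroup.commutator_le]
  intro y hy x hx
  rw [key]
  exact Subgroup.mem_centralizer_iff.mp (h1 hx) _ ⟨y, hy, rfl⟩

/-- The Thompson factorization part: `(A ⊓ Q) V` is again an abelian subgroup of largest order. -/
theorem PU.maxAb_inf_sup (h : PU p S Q) (hZ : ¬ (ZZ S).Normal)
    (hJ : ¬ thompsonSubgroupAOf S ≤ Q) {A : Subgroup G} (hA : A ∈ maxAbelianIn S) :
    A ⊓ Q ⊔ VV S ∈ maxAbelianIn S := by
  have hAc := (PLocal.ThompsonJA.isMulCommutative_iff A).mp hA.2.1
  have hex : ∃ W : Subgroup G, W ≤ VV S ∧ W ≠ VV S ∧ meas S (VV S) ≤ meas S W := by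
    obtain ⟨A₀, hA₀, hA₀Q⟩ : ∃ A₀ ∈ maxAbelianIn S, ¬ A₀ ≤ Q := by
      by_contra hcon
      push Not at hcon
      apply hJ
      rw [thompsonSubgroupAOf_eq_sSup]
      exact sSup_le hcon
    obtain ⟨m1, m2⟩ := h.maxAb_meas hZ hA₀
    refine ⟨_, inf_le_left, ?_, m1.trans m2⟩
    intro heq
    apply hA₀Q
    rw [← h.inf_cent hZ]
    refine le_inf hA₀.1 ?_
    rw [inf_eq_left] at heq
    intro a ha
    rw [Subgroup.mem_centralizer_iff]
    intro v hv
    exact (Subgroup.mem_centralizer_iff.mp (heq hv) a ha).symm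
  have hmx := h.least_eq hZ hex
  have hge := h.card_ge hZ (h.quadratic hZ hex)
  obtain ⟨_, m2⟩ := h.maxAb_meas hZ hA
  have m3 := hmx.2 (VV S ⊓ Subgroup.centralizer (A : Set G)) inf_le_left
  rw [meas_cent] at m3
  have m4 : Nat.card (A ⊔ Q : Subgroup G) * Nat.card (VV S ⊓ A : Subgroup G) ≤
      Nat.card Q * Nat.card (VV S) := m2.trans (m3.trans hge)
  have h3 := card_mul_card_le (B₁ := A) (B₂ := Q) (B₃ := A ⊔ Q) le_sup_left le_sup_right
  have h2 := card_mul_card_le (B₁ := VV S) (B₂ := A ⊓ Q) (B₃ := A ⊓ Q ⊔ VV S) le_sup_right le_sup_left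
  have h4 : Nat.card (VV S ⊓ (A ⊓ Q) : Subgroup G) ≤ Nat.card (VV S ⊓ A : Subgroup G) :=
    Subgroup.card_le_of_le (inf_le_inf_left _ inf_le_left)
  have hpQ : 0 < Nat.card Q := Nat.card_pos
  have hpV : 0 < Nat.card (VV S ⊓ A : Subgroup G) := Nat.card_pos
  have h5 : Nat.card A ≤ Nat.card (A ⊓ Q ⊔ VV S : Subgroup G) := by
    have h6 : Nat.card A * (Nat.card Q * Nat.card (VV S ⊓ A : Subgroup G)) ≤
        Nat.card (A ⊓ Q ⊔ VV S : Subgroup G) * (Nat.card Q * Nat.card (VV S ⊓ A : Subgroup G)) := by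
      calc Nat.card A * (Nat.card Q * Nat.card (VV S ⊓ A : Subgroup G))
          = (Nat.card A * Nat.card Q) * Nat.card (VV S ⊓ A : Subgroup G) := by ring
        _ ≤ (Nat.card (A ⊓ Q : Subgroup G) * Nat.card (A ⊔ Q : Subgroup G)) *
            Nat.card (VV S ⊓ A : Subgroup G) := Nat.mul_le_mul_right _ h3
        _ = Nat.card (A ⊓ Q : Subgroup G) * (Nat.card (A ⊔ Q : Subgroup G) *
            Nat.card (VV S ⊓ A : Subgroup G)) := by ring
        _ ≤ Nat.card (A ⊓ Q : Subgroup G) * (Nat.card Q * Nat.card (VV S)) :=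
            Nat.mul_le_mul_left _ m4
        _ = (Nat.card (VV S) * Nat.card (A ⊓ Q : Subgroup G)) * Nat.card Q := by ring
        _ ≤ (Nat.card (VV S ⊓ (A ⊓ Q) : Subgroup G) * Nat.card (A ⊓ Q ⊔ VV S : Subgroup G)) *
            Nat.card Q := Nat.mul_le_mul_right _ h2
        _ ≤ (Nat.card (VV S ⊓ A : Subgroup G) * Nat.card (A ⊓ Q ⊔ VV S : Subgroup G)) *
            Nat.card Q := by gcongr
        _ = _ := by ring
    exact Nat.le_of_mul_le_mul_right h6 (Nat.mul_pos hpQ hpV)
  refine ⟨sup_le (inf_le_right.trans h.le) (h.VV_le.trans (inf_le_left.trans h.le)), ?_,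
    fun B hB hBc => (hA.2.2 B hB hBc).trans h5⟩
  rw [PLocal.ThompsonJA.isMulCommutative_iff]
  intro x hx y hy
  obtain ⟨a, ha, v, hv, rfl⟩ := Subgroup.mem_sup_of_normal_right.mp hx
  obtain ⟨b, hb, w, hw, rfl⟩ := Subgroup.mem_sup_of_normal_right.mp hy
  have e1 := hAc a ha.1 b hb.1
  have e2 := h.VV_comm v hv w hw
  have e3 : a * w = w * a := (Subgroup.mem_centralizer_iff.mp (h.VV_le hw).2 a ha.2)
  have e4 : b * v = v * b := (Subgroup.mem_centralizer_iff.mp (h.VV_le hv).2 b hb.2)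
  calc a * v * (b * w) = a * (v * b) * w := by group
    _ = a * (b * v) * w := by rw [e4]
    _ = (a * b) * (v * w) := by group
    _ = (b * a) * (w * v) := by rw [e1, e2]
    _ = b * (a * w) * v := by group
    _ = b * (w * a) * v := by rw [e3]
    _ = _ := by group

theorem PU.quadratic' (h : PU p S Q) (hZ : ¬ (ZZ S).Normal)
    (hJ : ¬ thompsonSubgroupAOf S ≤ Q) : ⁅VV S, S⁆ ≤ Subgroup.centralizer (S : Set G) := by
  apply h.quadratic hZ
  obtain ⟨A₀, hA₀, hA₀Q⟩ : ∃ A₀ ∈ maxAbelianIn S, ¬ A₀ ≤ Q := by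
    by_contra hcon
    push Not at hcon
    apply hJ
    rw [thompsonSubgroupAOf_eq_sSup]
    exact sSup_le hcon
  obtain ⟨m1, m2⟩ := h.maxAb_meas hZ hA₀
  refine ⟨_, inf_le_left, ?_, m1.trans m2⟩
  intro heq
  apply hA₀Q
  rw [← h.inf_cent hZ]
  refine le_inf hA₀.1 ?_
  rw [inf_eq_left] at heq
  intro a ha
  rw [Subgroup.mem_centralizer_iff]
  intro v hv
  exact (Subgroup.mem_centralizer_iff.mp (heq hv) a ha).symm

/-- The structure of `Z(J(S))`: `Y = Z(J(S)) V` is normal, `[Y, ⟨J(S)^G⟩] ≤ V`, `G = ⟨J(S)^G⟩ Q`, `S = J(S) Q`. -/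
theorem PU.structureY (h : PU p S Q) (hZ : ¬ (ZZ S).Normal) (hJ : ¬ thompsonSubgroupAOf S ≤ Q) :
    (centerThompsonAOf S ⊔ VV S).Normal ∧ centerThompsonAOf S ≤ Q ∧
      thompsonSubgroupAOf S ⊔ Q = S ∧
      Subgroup.normalClosure (thompsonSubgroupAOf S : Set G) ⊔ Q = ⊤ := by
  have hQn := h.nQ
  have hJS : thompsonSubgroupAOf S ≤ S := thompsonSubgroupAOf_le S
  -- `Z(J(S)) ≤ Q`
  obtain ⟨A₁, hA₁⟩ := maxAbelianIn_nonempty S
  have hA₁' := h.maxAb_inf_sup hZ hJ hA₁
  have hA'Q : ∀ A : Subgroup G, A ⊓ Q ⊔ VV S ≤ Q := fun A =>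
    sup_le inf_le_right (h.VV_le.trans inf_le_left)
  have hZJA : ∀ A ∈ maxAbelianIn S, centerThompsonAOf S ≤ A := by
    intro A hA
    refine le_trans ?_ (inf_centralizer_le_of_mem_maxAbelianIn hA)
    exact le_inf (centerThompsonAOf_le S) ((centerThompsonAOf_le_centralizer S).trans
      (Subgroup.centralizer_le (le_thompsonSubgroupAOf hA)))
  have hZJQ : centerThompsonAOf S ≤ Q := (hZJA _ hA₁').trans (hA'Q A₁)
  -- `𝒜(Q) ⊆ 𝒜(S)`
  have hQmax : ∀ A ∈ maxAbelianIn S, A ≤ Q → A ∈ maxAbelianIn Q := fun A hA hAQ =>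
    ⟨hAQ, hA.2.1, fun B hB hBc => hA.2.2 B (hB.trans h.le) hBc⟩
  have hQmax' : ∀ A ∈ maxAbelianIn Q, A ∈ maxAbelianIn S := fun A hA =>
    ⟨hA.1.trans h.le, hA.2.1, fun B hB hBc =>
      (hA₁'.2.2 B hB hBc).trans (hA.2.2 _ (hA'Q A₁) hA₁'.2.1)⟩
  have hJQJS : thompsonSubgroupAOf Q ≤ thompsonSubgroupAOf S := by
    rw [thompsonSubgroupAOf_eq_sSup, thompsonSubgroupAOf_eq_sSup]
    exact sSup_le_sSup hQmax'
  have hZJZJ : centerThompsonAOf S ≤ centerThompsonAOf Q := by
    rw [← inf_centralizer_thompsonSubgroupAOf_eq Q]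
    exact le_inf hZJQ ((centerThompsonAOf_le_centralizer S).trans (Subgroup.centralizer_le hJQJS))
  have hZJQn : (centerThompsonAOf Q).Normal := by
    rw [← Subgroup.normalizer_eq_top_iff, eq_top_iff]
    have := normalizer_le_normalizer_centerThompsonAOf Q
    rwa [Subgroup.normalizer_eq_top_iff.mpr hQn] at this
  set Y : Subgroup G := Subgroup.normalClosure (centerThompsonAOf S : Set G) with hYdef
  have hYn : Y.Normal := Subgroup.normalClosure_normal
  have hYZ : Y ≤ centerThompsonAOf Q := Subgroup.normalClosure_le_normal hZJZJ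
  have hVY : VV S ≤ Y := by
    apply Subgroup.normalClosure_le_normal
    exact (inf_centralizer_le_centerThompsonAOf S).trans Subgroup.subset_normalClosure
  have hYA : ∀ A ∈ maxAbelianIn S, ⁅Y, A⁆ ≤ VV S := by
    intro A hA
    have hAc := (PLocal.ThompsonJA.isMulCommutative_iff A).mp hA.2.1
    have h1 : Y ≤ A ⊓ Q ⊔ VV S := by
      refine hYZ.trans (le_trans ?_ (inf_centralizer_le_of_mem_maxAbelianIn
        (hQmax _ (h.maxAb_inf_sup hZ hJ hA) (hA'Q A))))
      exact le_inf (centerThompsonAOf_le Q) ((centerThompsonAOf_le_centralizer Q).trans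
        (Subgroup.centralizer_le (le_thompsonSubgroupAOf
          (hQmax _ (h.maxAb_inf_sup hZ hJ hA) (hA'Q A)))))
    rw [Subgroup.commutator_le]
    intro y hy a ha
    obtain ⟨b, hb, v, hv, rfl⟩ := Subgroup.mem_sup_of_normal_right.mp (h1 hy)
    have e1 := hAc b hb.1 a ha
    have e : ⁅b * v, a⁆ = b * (v * (a * v⁻¹ * a⁻¹)) * b⁻¹ := by
      calc ⁅b * v, a⁆ = b * v * a * v⁻¹ * b⁻¹ * a⁻¹ := by rw [commutatorElement_def]; group
        _ = b * v * a * v⁻¹ * (a⁻¹ * (a * b⁻¹) * a⁻¹) := by group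
        _ = b * v * a * v⁻¹ * (a⁻¹ * (b⁻¹ * a) * a⁻¹) := by
            rw [show a * b⁻¹ = b⁻¹ * a by
              rw [mul_inv_eq_iff_eq_mul, mul_assoc, ← e1, inv_mul_cancel_left]]
        _ = _ := by group
    rw [e]
    have hVn : (VV S).Normal := inferInstance
    exact hVn.conj_mem _ (mul_mem hv (hVn.conj_mem _ (inv_mem hv) a)) b
  have hYJ : ⁅Y, thompsonSubgroupAOf S⁆ ≤ VV S := by
    rw [Subgroup.commutator_comm, Subgroup.commutator_le]
    have h1 : thompsonSubgroupAOf S ≤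
        (Subgroup.centralizer ((Y.map (QuotientGroup.mk' (VV S)) : Subgroup (G ⧸ VV S)) :
          Set (G ⧸ VV S))).comap (QuotientGroup.mk' (VV S)) := by
      rw [thompsonSubgroupAOf_eq_sSup]
      apply sSup_le
      intro A hA a ha
      change QuotientGroup.mk' (VV S) a ∈ Subgroup.centralizer _
      rw [Subgroup.mem_centralizer_iff]
      rintro _ ⟨y, hy, rfl⟩
      rw [← commutatorElement_eq_one_iff_mul_comm, ← map_commutatorElement]
      exact (QuotientGroup.eq_one_iff _).mpr (hYA A hA (Subgroup.commutator_mem_commutator hy ha))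
    intro x hx y hy
    have h2 := Subgroup.mem_centralizer_iff.mp (h1 hx) _ ⟨y, hy, rfl⟩
    rw [← commutatorElement_eq_one_iff_mul_comm, ← map_commutatorElement] at h2
    have h3 : ⁅y, x⁆ ∈ VV S := (QuotientGroup.eq_one_iff _).mp h2
    rw [← inv_mem_iff, commutatorElement_inv]
    exact h3
  have hYX : ⁅Y, Subgroup.normalClosure (thompsonSubgroupAOf S : Set G)⁆ ≤ VV S :=
    commutator_normalClosure_le hYJ
  have hJQ : thompsonSubgroupAOf S ⊔ Q = S := by
    have h0 := h.irr (thompsonSubgroupAOf S ⊔ Q) le_sup_right (sup_le hJS h.le) ?_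
    · rcases h0 with h1 | h1
      · exact absurd (h1 ▸ le_sup_left) hJ
      · exact h1
    · intro x hx r hr
      obtain ⟨j, hj, q, hq, rfl⟩ := Subgroup.mem_sup_of_normal_right.mp hr
      have e : x * (j * q) * x⁻¹ = (x * j * x⁻¹) * (x * q * x⁻¹) := by group
      rw [e]
      refine Subgroup.mul_mem_sup ?_ (hQn.conj_mem _ hq x)
      exact (Subgroup.mem_normalizer_iff.mp
        (normalizer_le_normalizer_thompsonSubgroupAOf S hx) j).mp hj
  have htop : Subgroup.normalClosure (thompsonSubgroupAOf S : Set G) ⊔ Q = ⊤ := by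
    apply h.big _ inferInstance
    have h1 : thompsonSubgroupAOf S ≤ Subgroup.normalClosure (thompsonSubgroupAOf S : Set G) :=
      Subgroup.subset_normalClosure
    have h2 : thompsonSubgroupAOf S ⊔ Q ≤
        Subgroup.normalClosure (thompsonSubgroupAOf S : Set G) ⊔ Q :=
      sup_le (h1.trans le_sup_left) le_sup_right
    rwa [hJQ] at h2
  refine ⟨?_, hZJQ, hJQ, htop⟩
  rw [← Subgroup.normalizer_eq_top_iff, eq_top_iff, ← htop]
  have hYle : centerThompsonAOf S ⊔ VV S ≤ Y := sup_le Subgroup.subset_normalClosure hVY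
  apply sup_le
  · intro x hx
    have key : ∀ x ∈ Subgroup.normalClosure (thompsonSubgroupAOf S : Set G),
        ∀ y ∈ centerThompsonAOf S ⊔ VV S, x * y * x⁻¹ ∈ centerThompsonAOf S ⊔ VV S := by
      intro x hx y hy
      have h1 : ⁅y, x⁆ ∈ VV S := hYX (Subgroup.commutator_mem_commutator (hYle hy) hx)
      have e : x * y * x⁻¹ = ⁅y, x⁆⁻¹ * y := by rw [commutatorElement_def]; group
      rw [e]
      exact mul_mem (Subgroup.mem_sup_right (inv_mem h1)) hy
    rw [Subgroup.mem_normalizer_iff]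
    intro y
    refine ⟨key x hx y, fun hy => ?_⟩
    have := key x⁻¹ (inv_mem hx) _ hy
    rwa [show x⁻¹ * (x * y * x⁻¹) * x⁻¹⁻¹ = y by group] at this
  · have h1 : Q ≤ Subgroup.normalizer (centerThompsonAOf S : Set G) :=
      h.le.trans (Subgroup.le_normalizer.trans (normalizer_le_normalizer_centerThompsonAOf S))
    intro x hx
    have key : ∀ x ∈ Q, ∀ y ∈ centerThompsonAOf S ⊔ VV S,
        x * y * x⁻¹ ∈ centerThompsonAOf S ⊔ VV S := by
      intro x hx y hy
      obtain ⟨z, hz, v, hv, rfl⟩ := Subgroup.mem_sup_of_normal_right.mp hy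
      have e : x * (z * v) * x⁻¹ = (x * z * x⁻¹) * (x * v * x⁻¹) := by group
      rw [e]
      have hVn : (VV S).Normal := inferInstance
      exact Subgroup.mul_mem_sup ((Subgroup.mem_normalizer_iff.mp (h1 hx) z).mp hz)
        (hVn.conj_mem _ hv x)
    rw [Subgroup.mem_normalizer_iff]
    intro y
    refine ⟨key x hx y, fun hy => ?_⟩
    have := key x⁻¹ (inv_mem hx) _ hy
    rwa [show x⁻¹ * (x * y * x⁻¹) * x⁻¹⁻¹ = y by group] at this

theorem sup_commutator_le {H₁ H₂ K C : Subgroup G} [C.Normal] (h1 : ⁅H₁, K⁆ ≤ C) (h2 : ⁅H₂, K⁆ ≤ C) :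
    ⁅H₁ ⊔ H₂, K⁆ ≤ C := by
  have key : ∀ x y : G, ⁅x, y⁆ ∈ C ↔ (QuotientGroup.mk' C x) * (QuotientGroup.mk' C y) =
      (QuotientGroup.mk' C y) * (QuotientGroup.mk' C x) := by
    intro x y
    rw [← commutatorElement_eq_one_iff_mul_comm, ← map_commutatorElement]
    exact (QuotientGroup.eq_one_iff _).symm
  have h3 : ∀ H : Subgroup G, ⁅H, K⁆ ≤ C → H ≤
      (Subgroup.centralizer ((K.map (QuotientGroup.mk' C) : Subgroup (G ⧸ C)) : Set (G ⧸ C))).comap
        (QuotientGroup.mk' C) := by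
    intro H hH x hx
    change QuotientGroup.mk' C x ∈ Subgroup.centralizer _
    rw [Subgroup.mem_centralizer_iff]
    rintro _ ⟨y, hy, rfl⟩
    exact ((key x y).mp (hH (Subgroup.commutator_mem_commutator hx hy))).symm
  rw [Subgroup.commutator_le]
  intro x hx y hy
  rw [key]
  exact (Subgroup.mem_centralizer_iff.mp ((sup_le (h3 _ h1) (h3 _ h2)) hx) _ ⟨y, hy, rfl⟩).symm

/-- **Baumann's theorem**, the case `J(S) ≰ Q`. -/
theorem PU.baumann (h : PU p S Q) (hZ : ¬ (ZZ S).Normal) (hJ : ¬ thompsonSubgroupAOf S ≤ Q)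
    (P : Sylow p G) (hP : (P : Subgroup G) = S) :
    ⁅centerThompsonAOf S, S⁆ ⊓ ZZ S ≤ Subgroup.center G ∧
    ∃ T : Sylow p ↥(Subgroup.normalClosure ((S ⊓ Subgroup.centralizer (centerThompsonAOf S : Set G) :
      Subgroup G) : Set G)), (T : Subgroup ↥(Subgroup.normalClosure
        ((S ⊓ Subgroup.centralizer (centerThompsonAOf S : Set G) : Subgroup G) : Set G))) =
        (S ⊓ Subgroup.centralizer (centerThompsonAOf S : Set G)).subgroupOf
          (Subgroup.normalClosure ((S ⊓ Subgroup.centralizer (centerThompsonAOf S : Set G) :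
            Subgroup G) : Set G)) := by
  obtain ⟨hYn, hZJQ, hJQ, htop⟩ := h.structureY hZ hJ
  have hQn := h.nQ
  set B : Subgroup G := S ⊓ Subgroup.centralizer (centerThompsonAOf S : Set G) with hBdef
  set X : Subgroup G := Subgroup.normalClosure (B : Set G) with hXdef
  have hXn : X.Normal := Subgroup.normalClosure_normal
  set C : Subgroup G := Q ⊓ Subgroup.centralizer ((centerThompsonAOf S ⊔ VV S : Subgroup G) : Set G)
    with hCdef
  have hCn : C.Normal := inferInstance
  have hQC : ∀ x ∈ Q, x ∈ Subgroup.centralizer (centerThompsonAOf S : Set G) → x ∈ C := by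
    intro x hx hx'
    refine ⟨hx, ?_⟩
    rw [centralizer_sup]
    exact ⟨hx', h.Q_le_cent hx⟩
  have hCcent : ∀ x ∈ C, x ∈ Subgroup.centralizer (centerThompsonAOf S : Set G) := by
    intro x hx
    have h1 := hx.2
    rw [centralizer_sup] at h1
    exact h1.1
  have hCB : C ≤ B := fun x hx => ⟨h.le hx.1, hCcent x hx⟩
  have hJB : thompsonSubgroupAOf S ≤ B := by
    refine le_inf (thompsonSubgroupAOf_le S) ?_
    intro j hj
    rw [Subgroup.mem_centralizer_iff]
    intro z hz
    exact (Subgroup.mem_centralizer_iff.mp (centerThompsonAOf_le_centralizer S hz) j hj).symm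
  have hBX : B ≤ X := Subgroup.subset_normalClosure
  have hSN : S ≤ Subgroup.normalizer (centerThompsonAOf S : Set G) :=
    Subgroup.le_normalizer.trans (normalizer_le_normalizer_centerThompsonAOf S)
  -- conjugation in `N(Z(J))` preserves the centralizer
  have hcc : ∀ n ∈ Subgroup.normalizer (centerThompsonAOf S : Set G),
      ∀ b ∈ Subgroup.centralizer (centerThompsonAOf S : Set G),
        n * b * n⁻¹ ∈ Subgroup.centralizer (centerThompsonAOf S : Set G) := by
    intro n hn b hb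
    rw [Subgroup.mem_centralizer_iff]
    intro z hz
    have h1 := (Subgroup.mem_normalizer_iff.mp (inv_mem hn) z).mp hz
    rw [inv_inv] at h1
    have h2 := Subgroup.mem_centralizer_iff.mp hb _ h1
    calc z * (n * b * n⁻¹) = n * ((n⁻¹ * z * n) * b) * n⁻¹ := by group
      _ = n * (b * (n⁻¹ * z * n)) * n⁻¹ := by rw [h2]
      _ = _ := by group
  have hSB : ∀ s ∈ S, ∀ b ∈ B, s * b * s⁻¹ ∈ B := fun s hs b hb =>
    ⟨S.mul_mem (S.mul_mem hs hb.1) (S.inv_mem hs), hcc s (hSN hs) b hb.2⟩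
  have hQB : ⁅Q, B⁆ ≤ C := by
    rw [Subgroup.commutator_le]
    intro q hq b hb
    apply hQC
    · have e : ⁅q, b⁆ = q * (b * q⁻¹ * b⁻¹) := by rw [commutatorElement_def]; group
      rw [e]
      exact mul_mem hq (hQn.conj_mem _ (inv_mem hq) b)
    · have h1 : ⁅q, b⁆ ∈ B := by
        rw [commutatorElement_def]
        exact mul_mem (hSB q (h.le hq) b hb) (inv_mem hb)
      exact h1.2
  have hQX : ⁅Q, X⁆ ≤ C := commutator_normalClosure_le hQB
  have hXtop : X ⊔ Q = ⊤ := by
    rw [eq_top_iff, ← htop]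
    have h1 : Subgroup.normalClosure (thompsonSubgroupAOf S : Set G) ≤ X :=
      Subgroup.normalClosure_le_normal (hJB.trans hBX)
    exact sup_le (h1.trans le_sup_left) le_sup_right
  constructor
  · -- `[Z(J(S)), S] ⊓ Z(S)` is central
    set D : Subgroup G := ⁅centerThompsonAOf S ⊔ VV S, Q⁆ with hDdef
    have hDn : D.Normal := inferInstance
    have hD1 : D ≤ ⁅centerThompsonAOf S, Q⁆ := by
      rw [hDdef, Subgroup.commutator_le]
      intro y hy q hq
      obtain ⟨z, hz, v, hv, rfl⟩ := Subgroup.mem_sup_of_normal_right.mp hy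
      have e1 : q * v = v * q := (Subgroup.mem_centralizer_iff.mp (h.VV_le hv).2 q hq)
      have e : ⁅z * v, q⁆ = ⁅z, q⁆ := by
        calc ⁅z * v, q⁆ = z * (v * q) * v⁻¹ * z⁻¹ * q⁻¹ := by rw [commutatorElement_def]; group
          _ = z * (q * v) * v⁻¹ * z⁻¹ * q⁻¹ := by rw [e1]
          _ = _ := by rw [commutatorElement_def]; group
      rw [e]
      exact Subgroup.commutator_mem_commutator hz hq
    have hJD : thompsonSubgroupAOf S ≤ Subgroup.centralizer (D : Set G) := by
      rw [Subgroup.le_centralizer_iff]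
      refine hD1.trans ?_
      rw [Subgroup.commutator_le]
      intro z hz q hq
      rw [Subgroup.mem_centralizer_iff]
      intro j hj
      have e1 : j * z = z * j := Subgroup.mem_centralizer_iff.mp (centerThompsonAOf_le_centralizer S hz) j hj
      have h1 : ⁅q⁻¹, j⁆ ∈ C := hQB (Subgroup.commutator_mem_commutator (inv_mem hq) (hJB hj))
      have e2 := Subgroup.mem_centralizer_iff.mp (hCcent _ h1) z hz
      have e3 : j * ⁅z, q⁆ * j⁻¹ = ⁅z, q⁆ := by
        have e4 : j * ⁅z, q⁆ * j⁻¹ = ⁅j * z * j⁻¹, j * q * j⁻¹⁆ := by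
          rw [commutatorElement_def, commutatorElement_def]; group
        have e5 : j * z * j⁻¹ = z := by rw [e1, mul_inv_cancel_right]
        have e6 : j * q * j⁻¹ = q * ⁅q⁻¹, j⁆ := by rw [commutatorElement_def]; group
        rw [e4, e5, e6]
        calc ⁅z, q * ⁅q⁻¹, j⁆⁆ = z * q * (⁅q⁻¹, j⁆ * z⁻¹) * ⁅q⁻¹, j⁆⁻¹ * q⁻¹ := by
              rw [commutatorElement_def z]; group
          _ = z * q * (z⁻¹ * ⁅q⁻¹, j⁆) * ⁅q⁻¹, j⁆⁻¹ * q⁻¹ := by
              rw [show ⁅q⁻¹, j⁆ * z⁻¹ = z⁻¹ * ⁅q⁻¹, j⁆ by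
                rw [mul_inv_eq_iff_eq_mul, mul_assoc, ← e2, inv_mul_cancel_left]]
          _ = _ := by rw [commutatorElement_def z]; group
      calc j * ⁅z, q⁆ = (j * ⁅z, q⁆ * j⁻¹) * j := by group
        _ = ⁅z, q⁆ * j := by rw [e3]
    have hX₀D : Subgroup.normalClosure (thompsonSubgroupAOf S : Set G) ≤
        Subgroup.centralizer (D : Set G) := Subgroup.normalClosure_le_normal hJD
    have hZJS : ⁅centerThompsonAOf S, S⁆ ≤ D := by
      rw [Subgroup.commutator_le]
      intro z hz s hs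
      rw [← hJQ] at hs
      obtain ⟨j, hj, q, hq, rfl⟩ := Subgroup.mem_sup_of_normal_right.mp hs
      have e1 : j * z = z * j := Subgroup.mem_centralizer_iff.mp (centerThompsonAOf_le_centralizer S hz) j hj
      have e : ⁅z, j * q⁆ = j * ⁅z, q⁆ * j⁻¹ := by
        calc ⁅z, j * q⁆ = (z * j) * q * z⁻¹ * q⁻¹ * j⁻¹ := by rw [commutatorElement_def]; group
          _ = (j * z) * q * z⁻¹ * q⁻¹ * j⁻¹ := by rw [e1]
          _ = _ := by rw [commutatorElement_def]; group
      rw [e]
      exact hDn.conj_mem _ (Subgroup.commutator_mem_commutator (Subgroup.mem_sup_left hz) hq) j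
    rintro x ⟨hx1, hx2⟩
    have h1 : Subgroup.centralizer ({x} : Set G) = ⊤ := by
      rw [eq_top_iff, ← htop]
      apply sup_le
      · intro y hy
        rw [Subgroup.mem_centralizer_singleton_iff]
        exact (Subgroup.mem_centralizer_iff.mp (hX₀D hy) x (hZJS hx1)).symm
      · intro y hy
        rw [Subgroup.mem_centralizer_singleton_iff]
        exact (mem_ZZ.mp hx2).2 y (h.le hy)
    rw [Subgroup.mem_center_iff]
    intro y
    have h2 : y ∈ Subgroup.centralizer ({x} : Set G) := by rw [h1]; trivial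
    exact Subgroup.mem_centralizer_singleton_iff.mp h2
  · obtain ⟨T, hT⟩ := exists_sylow_subgroupOf P X
    rw [hP] at hT
    refine ⟨T, le_antisymm ?_ ?_⟩
    · have hSX : ∀ s ∈ S, s ∈ X → ∃ b ∈ B, ∃ q ∈ Q, q ∈ X ∧ s = b * q := by
        intro s hs hsX
        rw [← hJQ] at hs
        obtain ⟨j, hj, q, hq, rfl⟩ := Subgroup.mem_sup_of_normal_right.mp hs
        refine ⟨j, hJB hj, q, hq, ?_, rfl⟩
        have := X.mul_mem (X.inv_mem (hBX (hJB hj))) hsX
        rwa [inv_mul_cancel_left] at this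
      have : (C.subgroupOf X).Normal := inferInstance
      have hSS : ⁅S ⊓ X, S ⊓ X⁆ ≤ C := by
        have h1 : S ⊓ X ≤ B ⊔ (Q ⊓ X) := by
          rintro s ⟨hs, hsX⟩
          obtain ⟨b, hb, q, hq, hqX, rfl⟩ := hSX s hs hsX
          exact Subgroup.mul_mem_sup hb ⟨hq, hqX⟩
        have hBB : ⁅B, B⁆ ≤ C := by
          rw [Subgroup.commutator_le]
          intro a ha b hb
          apply hQC
          · exact h.comm (Subgroup.commutator_mem_commutator ha.1 hb.1)
          · have h5 : ⁅a, b⁆ ∈ B := by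
              rw [commutatorElement_def]
              exact B.mul_mem (B.mul_mem (B.mul_mem ha hb) (B.inv_mem ha)) (B.inv_mem hb)
            exact h5.2
        have hQXX : ⁅Q ⊓ X, X⁆ ≤ C := (Subgroup.commutator_mono inf_le_left le_rfl).trans hQX
        have h2 : ⁅B ⊔ (Q ⊓ X), B⁆ ≤ C := by
          apply sup_commutator_le hBB
          exact (Subgroup.commutator_mono le_rfl hBX).trans hQXX
        have h3 : ⁅B ⊔ (Q ⊓ X), Q ⊓ X⁆ ≤ C := by
          rw [Subgroup.commutator_comm]
          exact (Subgroup.commutator_mono le_rfl (sup_le hBX inf_le_right)).trans hQXX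
        have h4 : ⁅B ⊔ (Q ⊓ X), B ⊔ (Q ⊓ X)⁆ ≤ C := by
          apply sup_commutator_le
          · rw [Subgroup.commutator_comm]; exact h2
          · rw [Subgroup.commutator_comm]; exact h3
        exact (Subgroup.commutator_mono h1 h1).trans h4
      have hcen : centerThompsonAOf (S ⊓ X) = centerThompsonAOf S :=
        centerThompsonAOf_eq_of_le (le_inf (thompsonSubgroupAOf_le S) (hJB.trans hBX)) inf_le_left
      apply sylow_le_of_normalClosure T (C.subgroupOf X) (B.subgroupOf X) (Q.subgroupOf X)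
      · rw [hT, Subgroup.commutator_le]
        intro x hx y hy
        exact hSS (Subgroup.commutator_mem_commutator ⟨hx, x.2⟩ ⟨hy, y.2⟩)
      · exact fun x hx => hCB hx
      · rw [hT]
        exact fun x hx => hx.1
      · intro n hn b hb
        rw [hT] at hn
        have hn' : (n : G) ∈ Subgroup.normalizer ((S ⊓ X : Subgroup G) : Set G) := by
          rw [Subgroup.mem_normalizer_iff] at hn ⊢
          intro x
          constructor
          · rintro ⟨hxS, hxX⟩
            have h2 := (hn ⟨x, hxX⟩).mp hxS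
            exact ⟨h2, hXn.conj_mem _ hxX n⟩
          · rintro ⟨hxS, hxX⟩
            have hxX' : x ∈ X := by
              have := hXn.conj_mem _ hxX (n : G)⁻¹
              rwa [show (n : G)⁻¹ * ((n : G) * x * (n : G)⁻¹) * (n : G)⁻¹⁻¹ = x by group] at this
            exact ⟨(hn ⟨x, hxX'⟩).mpr hxS, hxX'⟩
        have hn2 := normalizer_le_normalizer_centerThompsonAOf (S ⊓ X) hn'
        rw [hcen] at hn2
        exact ⟨((Subgroup.mem_normalizer_iff.mp hn' (b : G)).mp ⟨hb.1, b.2⟩).1, hcc _ hn2 _ hb.2⟩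
      · intro z hz x
        exact hQX (Subgroup.commutator_mem_commutator hz x.2)
      · rw [hT]
        intro x hx
        obtain ⟨b, hb, q, hq, hqX, e⟩ := hSX x hx x.2
        have e' : x = (⟨b, hBX hb⟩ : X) * ⟨q, hqX⟩ := Subtype.ext e
        rw [e']
        exact Subgroup.mul_mem_sup hb hq
      · -- the normal closure of `B` in `X` is `X`
        set N : Subgroup X := Subgroup.normalClosure ((B.subgroupOf X : Subgroup X) : Set X) with hNdef
        have hNn : N.Normal := Subgroup.normalClosure_normal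
        have hq : ∀ q ∈ Q, ∀ x ∈ N.map X.subtype, q * x * q⁻¹ ∈ N.map X.subtype := by
          rintro q hq _ ⟨x, hx, rfl⟩
          have h1 : N ≤ N.comap (MulAut.conjNormal q : X ≃* X).toMonoidHom := by
            apply Subgroup.normalClosure_le_normal
            intro b hb
            change (MulAut.conjNormal q : X ≃* X) b ∈ N
            apply Subgroup.subset_normalClosure
            exact hSB q (h.le hq) b hb
          exact ⟨MulAut.conjNormal q x, h1 hx, MulAut.conjNormal_apply q x⟩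
        have hx : ∀ y ∈ X, ∀ x ∈ N.map X.subtype, y * x * y⁻¹ ∈ N.map X.subtype := by
          rintro y hy _ ⟨x, hx, rfl⟩
          exact ⟨_, hNn.conj_mem x hx ⟨y, hy⟩, rfl⟩
        have hNG : (N.map X.subtype).Normal := by
          constructor
          intro x hx' g
          have hg : g ∈ X ⊔ Q := by rw [hXtop]; trivial
          obtain ⟨y, hy, q, hq', rfl⟩ := Subgroup.mem_sup_of_normal_right.mp hg
          have e : y * q * x * (y * q)⁻¹ = y * (q * x * q⁻¹) * y⁻¹ := by group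
          rw [e]
          exact hx y hy _ (hq q hq' x hx')
        have h2 : X ≤ N.map X.subtype := by
          apply Subgroup.normalClosure_le_normal
          intro b hb
          exact ⟨⟨b, hBX hb⟩, Subgroup.subset_normalClosure hb, rfl⟩
        rw [eq_top_iff]
        intro x _
        obtain ⟨y, hy, e⟩ := h2 x.2
        have : y = x := Subtype.ext e
        rwa [this] at hy
    · rw [hT]
      exact fun x hx => hx.1

end main

end Cfsg.Agent.H449.PushUp
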